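import Mathlib

/-! A small group of order at most three that is normalised with alternating signs is trivial. -/

set_option autoImplicit false

namespace Cfsg.Agent.HNBound

variable {G : Type*} [Group G]

theorem conj_zpow_comp {c g h : G} {a b : ℤ} (hg : g * c * g⁻¹ = c ^ a) (hh : h * c * h⁻¹ = c ^ b) :
    (g * h) * c * (g * h)⁻¹ = c ^ (a * b) := by
  have e : (g * h) * c * (g * h)⁻¹ = g * (h * c * h⁻¹) * g⁻¹ := by group
  rw [e, hh, ← conj_zpow, hg, ← zpow_mul]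

/-- The exponent sum argument: `z * (w⁻¹ z w x)³ = 1` with `x` inverting `c` of order dividing three. -/
theorem eq_one_of_signs {c x z w : G} (hz : z * z = 1) (hc : c ^ 3 = 1)
    (hx : x * c * x⁻¹ = c⁻¹) (hzc : z * c * z⁻¹ ∈ Subgroup.zpowers c)
    (hwc : w * c * w⁻¹ ∈ Subgroup.zpowers c)
    (hrel : z * (w⁻¹ * z * w * x) ^ 3 = 1) : c = 1 := by
  obtain ⟨e, he⟩ := Subgroup.mem_zpowers_iff.1 hzc
  obtain ⟨k, hk⟩ := Subgroup.mem_zpowers_iff.1 hwc
  -- `z²` fixes `c`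
  have he2 : c ^ (e * e) = c := by
    rw [← conj_zpow_comp he.symm he.symm, hz]; group
  -- the conjugate of `z` acts with the same exponent
  have hv : (w⁻¹ * z * w) * c * (w⁻¹ * z * w)⁻¹ = c ^ e := by
    have h1 : (w⁻¹ * z * w) * c * (w⁻¹ * z * w)⁻¹ = w⁻¹ * (z * (w * c * w⁻¹) * z⁻¹) * w⁻¹⁻¹ := by group
    have h2 : z * (w * c * w⁻¹) * z⁻¹ = (w * c * w⁻¹) ^ e := by
      rw [← hk, ← conj_zpow, ← he, ← zpow_mul, ← zpow_mul, mul_comm]
    rw [h1, h2, ← conj_zpow]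
    group
  have hx' : x * c * x⁻¹ = c ^ (-1 : ℤ) := by rw [hx, zpow_neg_one]
  have hvx := conj_zpow_comp hv hx'
  have h3 := conj_zpow_comp (conj_zpow_comp he.symm hvx) (conj_zpow_comp hvx hvx)
  have e3 : z * (w⁻¹ * z * w * x) * ((w⁻¹ * z * w * x) * (w⁻¹ * z * w * x)) = 1 := by
    rw [← hrel, pow_succ, pow_two]; group
  rw [e3] at h3
  have h4 : e * (e * -1) * (e * -1 * (e * -1)) = (e * e) * (e * e) * (-1) := by ring
  rw [h4, zpow_mul c (e * e * (e * e)), zpow_mul c (e * e) (e * e), he2, he2, zpow_neg_one] at h3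
  have h5 : c = c⁻¹ := by simpa using h3
  have h6 : c ^ 2 = 1 := by
    rw [pow_two]
    nth_rewrite 2 [h5]
    simp
  calc c = c ^ 3 * (c ^ 2)⁻¹ := by group
    _ = 1 := by rw [hc, h6]; simp

end Cfsg.Agent.HNBound
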