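import Cfsg.Agent.HNBound.HundredData
import Cfsg.Agent.HNBound.StepP

/-! The action on 100 points. -/

set_option autoImplicit false
set_option maxRecDepth 100000

namespace Cfsg.Agent.HNBound.Hundred

open Cfsg.Agent.CosetCert Cfsg.Agent.CosetEnum

/-- Table entry. -/
def step (l i : ℕ) : ℕ := if l < 6 then (tabs.getD l []).getD i i else i

/-- Inverse letter. -/
def pinv (l : ℕ) : ℕ := stepP.invl.getD l 0

theorem step_ok : ∀ l < 6, ∀ i < 100, step l i < 100 ∧ step (pinv l) (step l i) = i := by
  decide +kernel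

theorem pinv_pinv : ∀ l < 6, pinv (pinv l) = l ∧ pinv l < 6 := by decide +kernel

theorem step_out {l : ℕ} (h : 6 ≤ l) (i : ℕ) : step l i = i := by simp [step, not_lt.2 h]

theorem step_zero (i : Fin 100) : step 0 i = i := (by decide +kernel : ∀ i < 100, step 0 i = i) i i.2

theorem pinv_out {l : ℕ} (h : 6 ≤ l) : pinv l = 0 := List.getD_eq_default _ _ (by simpa [stepP] using h)

theorem step_lt (l : ℕ) (i : Fin 100) : step l i < 100 := by
  by_cases h : l < 6
  · exact (step_ok l h i i.2).1
  · rw [step_out (not_lt.1 h)]; exact i.2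

theorem step_pinv (l : ℕ) (i : Fin 100) : step (pinv l) (step l i) = i := by
  by_cases h : l < 6
  · exact (step_ok l h i i.2).2
  · rw [pinv_out (not_lt.1 h), step_out (not_lt.1 h)]; exact step_zero i

/-- A letter as a permutation. -/
def lperm (l : ℕ) : Equiv.Perm (Fin 100) where
  toFun i := ⟨step l i, step_lt l i⟩
  invFun i := ⟨step (pinv l) i, step_lt (pinv l) i⟩
  left_inv i := Fin.ext (step_pinv l i)
  right_inv i := by
    apply Fin.ext
    by_cases h : l < 6
    · have := step_pinv (pinv l) i
      rw [(pinv_pinv l h).1] at this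
      exact this
    · show step l (step (pinv l) i) = i
      rw [pinv_out (not_lt.1 h), step_out (not_lt.1 h)]; exact step_zero i

theorem lperm_out {l : ℕ} (h : 6 ≤ l) : lperm l = 1 := by
  ext i; exact step_out h i

theorem lperm_zero : lperm 0 = 1 := by
  ext i; exact step_zero i

theorem lperm_inv (l : ℕ) : lperm (pinv l) = (lperm l)⁻¹ := by
  rw [eq_inv_iff_mul_eq_one]
  ext i
  exact step_pinv l i

/-- Follow a path word. -/
def run (w : List ℕ) (i : ℕ) : ℕ := w.foldl (fun p l => step l p) i

theorem pval_apply (w : List ℕ) (i : Fin 100) : ((pval lperm w) i : ℕ) = run w i := by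
  induction w generalizing i with
  | nil => rfl
  | cons l ls ih =>
    show ((pval lperm ls) (lperm l i) : ℕ) = run ls (step l i)
    exact ih _

theorem pval_eq_one {w : List ℕ} (h : ∀ i < 100, run w i = i) : pval lperm w = 1 := by
  ext i
  rw [pval_apply, h i i.2]
  rfl

theorem relators_ok : ∀ u ∈ stepP.words, ∀ i < 100, run u i = i := by decide +kernel

theorem sq_ok : ∀ i < 100, run [1, 1] i = i := by decide +kernel

/-- Flatten index words. -/
def flat (F : List (List ℕ)) (L : List (List ℕ)) : List (List ℕ) :=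
  L.map fun w => w.flatMap fun j => F.getD j []

/-- Level 0. -/
def F0 : List (List ℕ) := gens0
/-- Level 1. -/
def F1 : List (List ℕ) := flat F0 gens1
/-- Level 2. -/
def F2 : List (List ℕ) := flat F1 gens2
/-- Level 3. -/
def F3 : List (List ℕ) := flat F2 gens3
/-- Level 4. -/
def F4 : List (List ℕ) := flat F3 gens4

/-- Images of a point under index words. -/
def images (F : List (List ℕ)) (a : ℕ) (O : List (List ℕ)) : List ℕ :=
  O.map fun w => run (w.flatMap fun j => F.getD j []) a

theorem orbit0_ok : (images F0 base0 orbit0).Nodup ∧ orbit0.length = 100 ∧ (∀ w ∈ F1, run w base0 = base0) := by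
  decide +kernel

theorem orbit1_ok : (images F1 base1 orbit1).Nodup ∧ orbit1.length = 77 ∧ (∀ w ∈ F2, run w base1 = base1) := by
  decide +kernel

theorem orbit2_ok : (images F2 base2 orbit2).Nodup ∧ orbit2.length = 60 ∧ (∀ w ∈ F3, run w base2 = base2) := by
  decide +kernel

theorem orbit3_ok : (images F3 base3 orbit3).Nodup ∧ orbit3.length = 32 ∧ (∀ w ∈ F4, run w base3 = base3) := by
  decide +kernel

theorem orbit4_ok : (images F4 base4 orbit4).Nodup ∧ orbit4.length = 3 := by
  decide +kernel

/-- The swaps of the third generator. -/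
def swaps : List (ℕ × ℕ) := [(0, 3), (1, 5), (2, 6), (4, 9), (8, 14), (11, 18), (13, 20), (15, 25), (17, 29), (19, 31), (22, 36), (23, 38), (24, 40), (26, 43), (27, 44), (30, 48), (33, 50), (34, 51), (35, 52), (37, 46), (42, 60), (47, 66), (49, 67), (57, 75), (59, 64), (61, 76), (69, 80), (71, 83), (73, 84), (74, 88), (81, 92), (82, 94), (85, 95), (86, 87), (91, 97)]

/-- Apply the swaps from the right. -/
def runSwaps (L : List (ℕ × ℕ)) (i : ℕ) : ℕ :=
  L.foldr (fun p j => if j = p.1 then p.2 else if j = p.2 then p.1 else j) i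

theorem swaps_ok : (∀ i < 100, runSwaps swaps i = step 5 i) ∧
    (∀ p ∈ swaps, p.1 < 100 ∧ p.2 < 100 ∧ p.1 ≠ p.2) ∧ swaps.length % 2 = 1 := by
  decide +kernel

theorem sub22_ok : twentyTwo.Nodup ∧ twentyTwo.length = 22 ∧ (∀ p ∈ twentyTwo, p < 100) ∧
    (∀ w ∈ F1, ∀ p ∈ twentyTwo, run w p ∈ twentyTwo) ∧
    images F1 (twentyTwo.getD 0 0) twentyTwoWords = twentyTwo := by
  decide +kernel

theorem sub77_ok : seventySeven.Nodup ∧ seventySeven.length = 77 ∧ (∀ p ∈ seventySeven, p < 100) ∧
    (∀ w ∈ F1, ∀ p ∈ seventySeven, run w p ∈ seventySeven) ∧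
    images F1 (seventySeven.getD 0 0) seventySevenWords = seventySeven := by
  decide +kernel

end Cfsg.Agent.HNBound.Hundred
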