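import Cfsg.Agent.HNBound.Main
import Cfsg.Agent.HNBound.Hundred
import Cfsg.Agent.Sporadic.HSRankThreeLeech
import Cfsg.Prelude.Def_SporadicB

/-!
# The double cover of the Higman-Sims group inside the group with three generators

If three elements satisfy the first ten Harada-Norton relators and the first does not square to one, then the
group they generate has a normal subgroup of index two which is a non-split double cover of the Higman-Sims group.
-/

set_option autoImplicit false
set_option maxRecDepth 100000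

namespace Cfsg.Agent.HNBound

open Cfsg.Agent.CosetCert Cfsg.Agent.CosetEnum

namespace Uni

/-- The action on 100 points. -/
noncomputable def act100 : Uni →* Equiv.Perm (Fin 100) :=
  PresentedGroup.toGroup (f := ![Hundred.lperm 1, Hundred.lperm 3, Hundred.lperm 5]) (by
    rintro r ⟨u, hu, rfl⟩
    rw [map_pval]
    have e : (fun l => FreeGroup.lift ![Hundred.lperm 1, Hundred.lperm 3, Hundred.lperm 5]
        (lett (FreeGroup.of (0 : Fin 3)) (FreeGroup.of 1) (FreeGroup.of 2) l)) = Hundred.lperm := by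
      funext l
      rcases Nat.lt_or_ge l 6 with h | h
      · interval_cases l <;> simp [lett, Hundred.lperm_zero, ← Hundred.lperm_inv, Hundred.pinv, stepP]
      · simp [lett, List.getD_eq_getElem?_getD, h, Hundred.lperm_out h]
    rw [e]
    exact Hundred.pval_eq_one (Hundred.relators_ok u hu))

theorem act100_x : act100 x = Hundred.lperm 1 := by simp [act100, x]
theorem act100_y : act100 y = Hundred.lperm 3 := by simp [act100, y]
theorem act100_z : act100 z = Hundred.lperm 5 := by simp [act100, z]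

theorem act100_lett (l : ℕ) : act100 (lett x y z l) = Hundred.lperm l := by
  rcases Nat.lt_or_ge l 6 with h | h
  · interval_cases l <;>
      simp [lett, act100_x, act100_y, act100_z, Hundred.lperm_zero, ← Hundred.lperm_inv, Hundred.pinv, stepP]
  · simp [lett, List.getD_eq_getElem?_getD, h, Hundred.lperm_out h]

/-- The action of the quotient on 100 points. -/
noncomputable def qact100 : Q →* Equiv.Perm (Fin 100) :=
  QuotientGroup.lift cen act100 (by
    rw [Subgroup.zpowers_le, MonoidHom.mem_ker, map_mul]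
    have h := act100_lett 1
    have e : lett x y z 1 = x := rfl
    rw [e] at h
    rw [h]
    simpa [pval] using Hundred.pval_eq_one Hundred.sq_ok)

theorem qact100_pval (w : List ℕ) :
    qact100 (pval (fun l => QuotientGroup.mk' cen (lett x y z l)) w) = pval Hundred.lperm w := by
  rw [map_pval]
  exact congrArg (fun f => pval f w) (funext fun l => act100_lett l)

/-- The character. -/
noncomputable def qchi : Q →* ℤˣ := Equiv.Perm.sign.comp qact100

theorem sign_swaps : Equiv.Perm.sign (Hundred.lperm 5) = -1 := by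
  let L : List (Equiv.Perm (Fin 100)) := Hundred.swaps.map fun p =>
    if h : p.1 < 100 ∧ p.2 < 100 then Equiv.swap ⟨p.1, h.1⟩ ⟨p.2, h.2⟩ else 1
  have happ : ∀ S : List (ℕ × ℕ), (∀ p ∈ S, p.1 < 100 ∧ p.2 < 100) → ∀ i : Fin 100,
      (((S.map fun p => if h : p.1 < 100 ∧ p.2 < 100 then Equiv.swap (⟨p.1, h.1⟩ : Fin 100) ⟨p.2, h.2⟩ else 1).prod i : Fin 100) : ℕ)
        = Hundred.runSwaps S i := by
    intro S
    induction S with
    | nil => intro _ i; rfl
    | cons p ps ih =>
      intro hp i
      have h := hp p List.mem_cons_self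
      rw [List.map_cons, List.prod_cons, Equiv.Perm.mul_apply, dif_pos h]
      show _ = (fun p j => if j = p.1 then p.2 else if j = p.2 then p.1 else j) p (Hundred.runSwaps ps i)
      simp only [Equiv.swap_apply_def, Fin.ext_iff, ← ih (fun q hq => hp q (List.mem_cons_of_mem _ hq)) i]
      split_ifs <;> rfl
  have e : Hundred.lperm 5 = L.prod := by
    ext i
    rw [happ Hundred.swaps (fun p hp => ⟨(Hundred.swaps_ok.2.1 p hp).1, (Hundred.swaps_ok.2.1 p hp).2.1⟩) i,
      Hundred.swaps_ok.1 i i.2]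
    rfl
  have hsw : ∀ g ∈ L, g.IsSwap := by
    intro g hg
    obtain ⟨p, hp, rfl⟩ := List.mem_map.1 hg
    have h := Hundred.swaps_ok.2.1 p hp
    rw [dif_pos ⟨h.1, h.2.1⟩]
    exact ⟨_, _, fun hh => h.2.2 (congrArg Fin.val hh), rfl⟩
  have hl : L.length = Hundred.swaps.length := List.length_map _
  rw [e, Equiv.Perm.sign_prod_list_swap hsw, hl]
  exact Odd.neg_one_pow (Nat.odd_iff.2 Hundred.swaps_ok.2.2)

theorem qchi_z : qchi qz = -1 := by
  show Equiv.Perm.sign (act100 (lett x y z 5)) = -1
  rw [act100_lett]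
  exact sign_swaps

/-- The subgroup of index two. -/
noncomputable abbrev kq : Subgroup Q := qchi.ker

theorem kq_index : kq.index = 2 := by
  rw [Subgroup.index_ker]
  have h : qchi.range = ⊤ := by
    rw [eq_top_iff]
    intro u _
    rcases Int.units_eq_one_or u with rfl | rfl
    · exact one_mem _
    · exact ⟨qz, qchi_z⟩
  rw [h, Subgroup.card_top, Nat.card_eq_fintype_card]
  rfl

theorem kq_card_le : Finite kq ∧ Nat.card kq ≤ 44352000 := by
  haveI := card_Q.1
  have h := Subgroup.card_mul_index kq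
  rw [kq_index] at h
  have := card_Q.2
  exact ⟨inferInstance, by omega⟩

/-- The letters in the quotient. -/
noncomputable def qlett (l : ℕ) : Q := QuotientGroup.mk' cen (lett x y z l)

theorem qact100_word (w : List ℕ) : qact100 (pval qlett w) = pval Hundred.lperm w := qact100_pval w

theorem qchi_rel {u : List ℕ} (hu : u ∈ stepP.words) : qchi (pval qlett u) = 1 := by
  have h : pval qlett u = 1 := by
    show pval (fun l => QuotientGroup.mk' cen (lett x y z l)) u = 1
    rw [← map_pval, rel hu, map_one]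
  rw [h, map_one]

theorem qchi_y : qchi qy = 1 := by
  have h := qchi_rel (show [3, 3, 3, 1, 3, 3, 2, 3, 3, 3, 1, 3, 3, 2, 3, 3, 3, 1, 3, 3, 2] ∈ stepP.words by decide +kernel)
  rw [map_pval] at h
  have h2 : qchi (qlett 2) = (qchi qx)⁻¹ := by
    show qchi (QuotientGroup.mk' cen x⁻¹) = _
    rw [map_inv, map_inv]
  have h1 : qchi (qlett 1) = qchi qx := rfl
  have h3 : qchi (qlett 3) = qchi qy := rfl
  simp only [pval, h1, h2, h3] at h
  rcases Int.units_eq_one_or (qchi qx) with hx | hx <;> rcases Int.units_eq_one_or (qchi qy) with hy | hy <;>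
    first | exact hy | (rw [hx, hy] at h; exact absurd h (by decide))

theorem qchi_x : qchi qx = 1 := by
  have h := qchi_rel (show [1, 3, 1, 3, 1, 3, 3, 3, 5, 4, 4, 4, 2, 4, 2, 4, 1, 3, 1, 3, 1, 3, 3, 3, 5, 4, 4, 4, 2, 4, 2, 4,
    1, 3, 1, 3, 1, 3, 3, 3, 5, 4, 4, 4, 2, 4, 2, 4, 5] ∈ stepP.words by decide +kernel)
  rw [map_pval] at h
  have h2 : qchi (qlett 2) = (qchi qx)⁻¹ := by
    show qchi (QuotientGroup.mk' cen x⁻¹) = _
    rw [map_inv, map_inv]
  have h1 : qchi (qlett 1) = qchi qx := rfl
  have h3 : qchi (qlett 3) = 1 := qchi_y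
  have h4 : qchi (qlett 4) = 1 := by
    show qchi (QuotientGroup.mk' cen y⁻¹) = _
    rw [map_inv, map_inv, qchi_y, inv_one]
  have h5 : qchi (qlett 5) = -1 := qchi_z
  simp only [pval, h1, h2, h3, h4, h5] at h
  rcases Int.units_eq_one_or (qchi qx) with hx | hx
  · exact hx
  · rw [hx] at h; exact absurd h (by decide)

theorem F0_mem : ∀ w ∈ Hundred.F0, pval qlett w ∈ kq := by
  intro w hw
  rw [MonoidHom.mem_ker]
  have h1 : qchi (qlett 1) = 1 := qchi_x
  have h3 : qchi (qlett 3) = 1 := qchi_y
  have h4 : qchi (qlett 4) = 1 := by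
    show qchi (QuotientGroup.mk' cen y⁻¹) = 1
    rw [map_inv, map_inv, qchi_y, inv_one]
  have h5 : qchi (qlett 5) = -1 := qchi_z
  rcases (by decide +kernel : ∀ w ∈ Hundred.F0, w = [1] ∨ w = [3] ∨ w = [4] ∨ w = [5, 3, 5] ∨ w = [5, 4, 5]) w hw with
    rfl | rfl | rfl | rfl | rfl <;> simp [pval, h1, h3, h4, h5]

theorem pval_flat_mem {G : Type*} [Group G] (g : ℕ → G) (F : List (List ℕ)) (w : List ℕ) :
    pval g (w.flatMap fun j => F.getD j []) ∈ Subgroup.closure {a | ∃ u ∈ F, pval g u = a} := by
  induction w with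
  | nil => exact one_mem _
  | cons l ls ih =>
    rw [List.flatMap_cons, pval_append]
    refine mul_mem ih ?_
    rcases lt_or_ge l F.length with h | h
    · rw [List.getD_eq_getElem _ _ h]
      exact Subgroup.subset_closure ⟨_, List.getElem_mem h, rfl⟩
    · rw [List.getD_eq_default _ _ h]
      exact one_mem _

/-- The group of permutations generated by flattened words. -/
abbrev gen (F : List (List ℕ)) : Subgroup (Equiv.Perm (Fin 100)) :=
  Subgroup.closure {a | ∃ u ∈ F, pval Hundred.lperm u = a}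

theorem gen_flat_le (F L : List (List ℕ)) : gen (Hundred.flat F L) ≤ gen F := by
  rw [Subgroup.closure_le]
  rintro _ ⟨u, hu, rfl⟩
  obtain ⟨w, _, rfl⟩ := List.mem_map.1 hu
  exact pval_flat_mem _ F w

theorem gen_fixes (F : List (List ℕ)) (a : Fin 100) (h : ∀ w ∈ F, Hundred.run w a = a) :
    ∀ g ∈ gen F, g a = a := by
  intro g hg
  induction hg using Subgroup.closure_induction with
  | mem p hp =>
    obtain ⟨w, hw, rfl⟩ := hp
    exact Fin.ext (by rw [Hundred.pval_apply, h w hw])
  | one => rfl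
  | mul p q _ _ hp hq => rw [Equiv.Perm.mul_apply, hq, hp]
  | inv p _ hp => rw [Equiv.Perm.inv_eq_iff_eq]; exact hp.symm

theorem gen_orbit (F : List (List ℕ)) (a : Fin 100) (O : List (List ℕ)) (hO : (Hundred.images F a O).Nodup)
    (B : Subgroup (Equiv.Perm (Fin 100))) (hBA : B ≤ gen F) (hB : ∀ g ∈ B, g a = a) :
    O.length * Nat.card B ≤ Nat.card (gen F) := by
  have h := card_step (gen F) B a hBA hB
    (O.map fun w => pval Hundred.lperm (w.flatMap fun j => F.getD j []) a) ?_ ?_
  · rwa [List.length_map] at h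
  · refine List.Nodup.of_map (fun i : Fin 100 => (i : ℕ)) ?_
    rw [List.map_map]
    convert hO using 1
    refine List.map_congr_left fun w _ => ?_
    simp only [Function.comp, Hundred.pval_apply]
  · intro p hp
    obtain ⟨w, _, rfl⟩ := List.mem_map.1 hp
    exact ⟨_, pval_flat_mem _ F w, rfl⟩

theorem gen_stab_ge : 443520 ≤ Nat.card (gen Hundred.F1) := by
  have h4 := gen_orbit Hundred.F4 (⟨Hundred.base4, by decide⟩ : Fin 100) Hundred.orbit4 Hundred.orbit4_ok.1 ⊥ bot_le
    (fun g hg => by rw [Subgroup.mem_bot.1 hg]; rfl)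
  have h3 := gen_orbit Hundred.F3 (⟨Hundred.base3, by decide⟩ : Fin 100) Hundred.orbit3 Hundred.orbit3_ok.1 (gen Hundred.F4)
    (gen_flat_le Hundred.F3 _) (gen_fixes Hundred.F4 _ Hundred.orbit3_ok.2.2)
  have h2 := gen_orbit Hundred.F2 (⟨Hundred.base2, by decide⟩ : Fin 100) Hundred.orbit2 Hundred.orbit2_ok.1 (gen Hundred.F3)
    (gen_flat_le Hundred.F2 _) (gen_fixes Hundred.F3 _ Hundred.orbit2_ok.2.2)
  have h1 := gen_orbit Hundred.F1 (⟨Hundred.base1, by decide⟩ : Fin 100) Hundred.orbit1 Hundred.orbit1_ok.1 (gen Hundred.F2)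
    (gen_flat_le Hundred.F1 _) (gen_fixes Hundred.F2 _ Hundred.orbit1_ok.2.2)
  rw [Subgroup.card_bot, Hundred.orbit4_ok.2] at h4
  rw [Hundred.orbit3_ok.2.1] at h3
  rw [Hundred.orbit2_ok.2.1] at h2
  rw [Hundred.orbit1_ok.2.1] at h1
  omega

theorem gen_top_ge : 44352000 ≤ Nat.card (gen Hundred.F0) := by
  have h0 := gen_orbit Hundred.F0 (⟨Hundred.base0, by decide⟩ : Fin 100) Hundred.orbit0 Hundred.orbit0_ok.1 (gen Hundred.F1)
    (gen_flat_le Hundred.F0 _) (gen_fixes Hundred.F1 _ Hundred.orbit0_ok.2.2)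
  rw [Hundred.orbit0_ok.2.1] at h0
  have := gen_stab_ge
  omega

theorem gen_top_le : gen Hundred.F0 ≤ kq.map qact100 := by
  rw [Subgroup.closure_le]
  rintro _ ⟨u, hu, rfl⟩
  exact ⟨pval qlett u, F0_mem u hu, qact100_word u⟩

theorem kq_faithful : ∀ g ∈ kq, qact100 g = 1 → g = 1 := by
  haveI := kq_card_le.1
  set f := qact100.comp kq.subtype with hf
  have hr : gen Hundred.F0 ≤ f.range := by
    refine gen_top_le.trans ?_
    rintro _ ⟨g, hg, rfl⟩
    exact ⟨⟨g, hg⟩, rfl⟩
  have hinj : Function.Injective f := by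
    have hs := MonoidHom.rangeRestrict_surjective f
    have := (Nat.bijective_iff_surjective_and_card _).2
      ⟨hs, le_antisymm (kq_card_le.2.trans (gen_top_ge.trans (Subgroup.card_le_of_le hr)))
        (Nat.card_le_card_of_surjective _ hs)⟩
    exact fun a b h => this.1 (Subtype.ext h)
  intro g hg h
  exact congrArg Subtype.val (hinj (show f ⟨g, hg⟩ = f 1 by rw [map_one]; exact h))

theorem qact100_injective : Function.Injective qact100 := by
  rw [injective_iff_map_eq_one]
  intro g hg
  refine kq_faithful g ?_ hg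
  rw [MonoidHom.mem_ker]
  show Equiv.Perm.sign (qact100 g) = 1
  rw [hg, map_one]

noncomputable instance kqAction : MulAction kq (Fin 100) :=
  MulAction.compHom _ (qact100.comp kq.subtype)

theorem kq_smul (g : kq) (i : Fin 100) : g • i = qact100 g i := rfl

instance kq_faithfulSMul : FaithfulSMul kq (Fin 100) :=
  ⟨fun {g g'} h => Subtype.ext (qact100_injective (Equiv.ext h))⟩

theorem kq_trans (p : Fin 100) : ∃ g : kq, g • (0 : Fin 100) = p := by
  have hO := Hundred.orbit0_ok
  let f : Fin 100 → Fin 100 := fun i =>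
    pval Hundred.lperm ((Hundred.orbit0.getD i []).flatMap fun j => Hundred.F0.getD j []) 0
  have hlen : (Hundred.images Hundred.F0 Hundred.base0 Hundred.orbit0).length = 100 := by
    rw [Hundred.images, List.length_map, hO.2.1]
  have hf : Function.Injective f := by
    intro i j h
    have h' := congrArg Fin.val h
    simp only [f, Hundred.pval_apply] at h'
    have hi : (i : ℕ) < Hundred.orbit0.length := by rw [hO.2.1]; exact i.2
    have hj : (j : ℕ) < Hundred.orbit0.length := by rw [hO.2.1]; exact j.2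
    rw [List.getD_eq_getElem _ _ hi, List.getD_eq_getElem _ _ hj] at h'
    have h2 : (Hundred.images Hundred.F0 Hundred.base0 Hundred.orbit0)[(i : ℕ)]'(by rw [hlen]; exact i.2) =
        (Hundred.images Hundred.F0 Hundred.base0 Hundred.orbit0)[(j : ℕ)]'(by rw [hlen]; exact j.2) := by
      simpa [Hundred.images, Hundred.base0] using h'
    exact Fin.ext ((List.Nodup.getElem_inj_iff hO.1).1 h2)
  obtain ⟨i, hi⟩ := (Finite.injective_iff_surjective.1 hf) p
  obtain ⟨g, hg, he⟩ := gen_top_le (pval_flat_mem Hundred.lperm Hundred.F0 (Hundred.orbit0.getD i []))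
  refine ⟨⟨g, hg⟩, ?_⟩
  rw [kq_smul, he]
  exact hi

theorem card_kq : Nat.card kq = 44352000 := by
  haveI := kq_card_le.1
  refine le_antisymm kq_card_le.2 ?_
  refine gen_top_ge.trans ((Subgroup.card_le_of_le gen_top_le).trans ?_)
  exact Nat.card_le_card_of_surjective (fun g : kq => (⟨qact100 g, ⟨g, g.2, rfl⟩⟩ : kq.map qact100))
    (by rintro ⟨_, g, hg, rfl⟩; exact ⟨⟨g, hg⟩, rfl⟩)

theorem card_stab : Nat.card (MulAction.stabilizer kq (0 : Fin 100)) = 443520 := by
  have horb : MulAction.orbit kq (0 : Fin 100) = Set.univ := Set.eq_univ_of_forall fun p => kq_trans p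
  have e := Nat.card_congr (MulAction.orbitProdStabilizerEquivGroup kq (0 : Fin 100))
  rw [Nat.card_prod, horb, Nat.card_coe_set_eq, Set.ncard_univ, Nat.card_fin, card_kq] at e
  omega

theorem stab_image (g : Equiv.Perm (Fin 100)) :
    g ∈ gen Hundred.F1 ↔ ∃ h : kq, h • (0 : Fin 100) = 0 ∧ qact100 h = g := by
  haveI := kq_card_le.1
  set S := (MulAction.stabilizer kq (0 : Fin 100)).map (qact100.comp kq.subtype) with hS
  have hle : gen Hundred.F1 ≤ S := by
    intro a ha
    obtain ⟨q, hq, rfl⟩ := gen_top_le (gen_flat_le Hundred.F0 _ ha)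
    exact ⟨⟨q, hq⟩, gen_fixes Hundred.F1 0 Hundred.orbit0_ok.2.2 _ ha, rfl⟩
  have hcard : Nat.card S ≤ 443520 := by
    rw [← card_stab]
    exact Nat.card_le_card_of_surjective
      (fun h : MulAction.stabilizer kq (0 : Fin 100) => (⟨qact100.comp kq.subtype h.1, ⟨h.1, h.2, rfl⟩⟩ : S))
      (by rintro ⟨_, h, hh, rfl⟩; exact ⟨⟨h, hh⟩, rfl⟩)
  have heq : gen Hundred.F1 = S := Subgroup.eq_of_le_of_card_ge hle (hcard.trans gen_stab_ge)
  rw [heq]
  exact ⟨fun ⟨h, hh, he⟩ => ⟨h, hh, he⟩, fun ⟨h, hh, he⟩ => ⟨h, hh, he⟩⟩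

theorem suborbit (L : List ℕ) (W : List (List ℕ)) (hnd : L.Nodup) (hlt : ∀ p ∈ L, p < 100)
    (hinv : ∀ w ∈ Hundred.F1, ∀ p ∈ L, Hundred.run w p ∈ L) (himg : Hundred.images Hundred.F1 (L.getD 0 0) W = L) (hpos : L ≠ []) :
    ∃ b : Fin 100, (MulAction.orbit (MulAction.stabilizer kq (0 : Fin 100)) b).ncard = L.length := by
  have h0 : L.getD 0 0 ∈ L := by
    rw [List.getD_eq_getElem _ _ (List.length_pos_of_ne_nil hpos)]
    exact List.getElem_mem _
  refine ⟨⟨L.getD 0 0, hlt _ h0⟩, ?_⟩
  set T : Set (Fin 100) := {p | (p : ℕ) ∈ L} with hT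
  have hgen : ∀ g ∈ gen Hundred.F1, Set.MapsTo g T T := by
    intro g hg
    induction hg using Subgroup.closure_induction with
    | mem a ha =>
      obtain ⟨w, hw, rfl⟩ := ha
      intro p hp
      show ((pval Hundred.lperm w) p : ℕ) ∈ L
      rw [Hundred.pval_apply]
      exact hinv w hw p hp
    | one => exact fun p hp => hp
    | mul a b _ _ ha hb => exact fun p hp => ha (hb hp)
    | inv a _ ha =>
      have hbij := (Set.toFinite T).injOn_iff_bijOn_of_mapsTo ha |>.1 a.injective.injOn
      intro p hp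
      obtain ⟨q, hq, rfl⟩ := hbij.surjOn hp
      simpa using hq
  have horb : MulAction.orbit (MulAction.stabilizer kq (0 : Fin 100)) (⟨L.getD 0 0, hlt _ h0⟩ : Fin 100) = T := by
    ext p
    constructor
    · rintro ⟨⟨h, hh⟩, rfl⟩
      exact hgen _ ((stab_image _).2 ⟨h, hh, rfl⟩) (show L.getD 0 0 ∈ L from h0)
    · intro hp
      have hp' : (p : ℕ) ∈ Hundred.images Hundred.F1 (L.getD 0 0) W := by rw [himg]; exact hp
      obtain ⟨w, _, hw⟩ := List.mem_map.1 hp'
      obtain ⟨h, hh, he⟩ := (stab_image _).1 (pval_flat_mem Hundred.lperm Hundred.F1 w)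
      refine ⟨⟨h, hh⟩, ?_⟩
      show qact100 h _ = p
      rw [he]
      exact Fin.ext (by rw [Hundred.pval_apply]; exact hw)
  rw [horb]
  have e : T = ((L.attach.map fun p => (⟨p.1, hlt _ p.2⟩ : Fin 100)).toFinset : Set (Fin 100)) := by
    ext p
    simp [hT, Fin.ext_iff]
  rw [e, Set.ncard_coe_finset, List.toFinset_card_of_nodup, List.length_map, List.length_attach]
  exact (List.nodup_attach.2 hnd).map fun p q h => Subtype.ext (congrArg Fin.val h)

theorem kq_isoHS : Nonempty (kq ≃* Spor.HS) := by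
  obtain ⟨b, hb⟩ := suborbit _ _ Hundred.sub22_ok.1 Hundred.sub22_ok.2.2.1 Hundred.sub22_ok.2.2.2.1
    Hundred.sub22_ok.2.2.2.2 (by decide +kernel)
  obtain ⟨c, hc⟩ := suborbit _ _ Hundred.sub77_ok.1 Hundred.sub77_ok.2.2.1 Hundred.sub77_ok.2.2.2.1
    Hundred.sub77_ok.2.2.2.2 (by decide +kernel)
  rw [Hundred.sub22_ok.2.1] at hb
  rw [Hundred.sub77_ok.2.1] at hc
  exact HSRank.isoHS (a := (0 : Fin 100)) (b := b) (c := c)
    ⟨Nat.card_fin 100, kq_trans, hb, hc⟩ card_stab

theorem kq_simple : IsSimpleGroup kq := by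
  obtain ⟨e⟩ := kq_isoHS
  haveI := Leech.isSimpleGroup_hs
  exact (MulEquiv.isSimpleGroup_congr (e.trans Leech.sporEquiv.symm)).2 inferInstance

theorem kq_center : Subgroup.center kq = ⊥ := by
  haveI := kq_simple
  rcases IsSimpleGroup.eq_bot_or_eq_top_of_normal (Subgroup.center kq) inferInstance with h | h
  · exact h
  · exfalso
    letI : CommGroup kq := Group.commGroupOfCenterEqTop h
    have hp := IsSimpleGroup.prime_card (α := kq)
    rw [card_kq] at hp
    norm_num at hp

/-- A normal subgroup of the quotient is trivial or contains the index two subgroup. -/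
theorem normal_cases (N : Subgroup Q) [N.Normal] : N = ⊥ ∨ kq ≤ N := by
  haveI := kq_simple
  rcases IsSimpleGroup.eq_bot_or_eq_top_of_normal (N.subgroupOf kq) inferInstance with h | h
  · refine Or.inl (Subgroup.eq_bot_iff_forall _ |>.2 fun n hn => ?_)
    have hcomm : ∀ k ∈ kq, k * n = n * k := by
      intro k hk
      have h1 : k * n * k⁻¹ * n⁻¹ ∈ N := mul_mem (Subgroup.Normal.conj_mem ‹_› n hn k) (inv_mem hn)
      have h2 : k * n * k⁻¹ * n⁻¹ ∈ kq := by
        rw [mul_assoc, mul_assoc]
        refine mul_mem hk ?_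
        rw [← mul_assoc]
        exact (inferInstance : kq.Normal).conj_mem _ (inv_mem hk) n
      have h3 : (⟨_, h2⟩ : kq) ∈ N.subgroupOf kq := h1
      rw [h, Subgroup.mem_bot] at h3
      have h4 : k * n * k⁻¹ * n⁻¹ = 1 := congrArg Subtype.val h3
      exact mul_inv_eq_iff_eq_mul.1 (mul_inv_eq_one.1 h4)
    -- `n` fixes `0`, as the only fixed point of the stabiliser
    have hfix : ∀ g : kq, g • (0 : Fin 100) = 0 → qact100 g (qact100 n 0) = qact100 n 0 := by
      intro g hg
      rw [← Equiv.Perm.mul_apply, ← map_mul, hcomm g g.2, map_mul, Equiv.Perm.mul_apply, ← kq_smul, hg]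
    have h0 : qact100 n 0 = 0 := by
      by_contra hne
      have key : ∀ i : Fin 100, i ≠ 0 → ∃ w ∈ Hundred.F1, Hundred.run w i ≠ i := by decide +kernel
      obtain ⟨w, hw, hwi⟩ := key _ hne
      obtain ⟨g, hg, he⟩ := (stab_image _).1 (Subgroup.subset_closure ⟨w, hw, rfl⟩)
      apply hwi
      rw [← Hundred.pval_apply, ← he, hfix g hg]
    refine qact100_injective ?_
    rw [map_one]
    ext p : 1
    obtain ⟨g, rfl⟩ := kq_trans p
    rw [kq_smul, ← Equiv.Perm.mul_apply, ← map_mul, ← hcomm g g.2, map_mul, Equiv.Perm.mul_apply, h0]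
    rfl
  · exact Or.inr fun k hk => Subgroup.subgroupOf_eq_top.1 h hk

theorem ker_trivial {G : Type*} [Group G] (f : Uni →* G) (hx : f (x * x) ≠ 1) : Function.Injective f := by
  rw [← MonoidHom.ker_eq_bot_iff]
  haveI : (f.ker.map (QuotientGroup.mk' cen)).Normal :=
    Subgroup.Normal.map inferInstance _ (QuotientGroup.mk'_surjective cen)
  have hsq : ∀ c ∈ cen, c * c = 1 := by
    intro c hc
    obtain ⟨k, rfl⟩ := Subgroup.mem_zpowers_iff.1 hc
    have e : (x * x) * (x * x) = 1 := by rw [← x4]; simp [pow_succ, mul_assoc]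
    rw [← zpow_add, ← two_mul, zpow_mul, zpow_two, e, one_zpow]
  rcases normal_cases (f.ker.map (QuotientGroup.mk' cen)) with h | h
  · rw [Subgroup.eq_bot_iff_forall]
    intro k hk
    have h1 : QuotientGroup.mk' cen k ∈ f.ker.map (QuotientGroup.mk' cen) := ⟨k, hk, rfl⟩
    rw [h, Subgroup.mem_bot] at h1
    have h2 : k ∈ cen := (QuotientGroup.eq_one_iff k).1 h1
    obtain ⟨j, rfl⟩ := Subgroup.mem_zpowers_iff.1 h2
    rw [MonoidHom.mem_ker, map_zpow] at hk
    rcases Int.even_or_odd j with ⟨i, rfl⟩ | ⟨i, rfl⟩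
    · rw [zpow_add]
      exact hsq _ (Subgroup.mem_zpowers_iff.2 ⟨i, rfl⟩)
    · exfalso
      have e : f (x * x) * f (x * x) = 1 := by rw [← map_mul, hsq _ (Subgroup.mem_zpowers _), map_one]
      rw [zpow_add, zpow_one, zpow_mul, zpow_two, e, one_zpow, one_mul] at hk
      exact hx hk
  · exfalso
    obtain ⟨k, hk, hkx⟩ := h (show qx ∈ kq from qchi_x)
    have hc : x⁻¹ * k ∈ cen := by
      rw [← QuotientGroup.eq_one_iff]
      show QuotientGroup.mk' cen (x⁻¹ * k) = 1
      rw [map_mul, map_inv, hkx, inv_mul_cancel]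
    set c := x⁻¹ * k with hcdef
    have hkk : k = x * c := by rw [hcdef, mul_inv_cancel_left]
    have hcomm : c * x = x * c := (Subgroup.mem_center_iff.1 (cen_le_center hc) x).symm
    have : k * k = x * x := by
      calc k * k = x * (c * x) * c := by rw [hkk]; group
        _ = x * x * (c * c) := by rw [hcomm]; group
        _ = x * x := by rw [hsq c hc, mul_one]
    apply hx
    rw [← this, map_mul, MonoidHom.mem_ker.1 hk, one_mul]

/-- The double cover in any faithful copy. -/
theorem cover_of_equiv {W : Type*} [Group W] (e : Uni ≃* W) (hx : x * x ≠ 1) :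
    ∃ K : Subgroup W, K.Normal ∧ K.index = 2 ∧ IsNonsplitDoubleCover K Spor.HS := by
  obtain ⟨eK⟩ := kq_isoHS
  let π : W →* Q := (QuotientGroup.mk' cen).comp e.symm.toMonoidHom
  have hπ : Function.Surjective π := (QuotientGroup.mk'_surjective cen).comp e.symm.surjective
  let K : Subgroup W := (qchi.comp π).ker
  have hKindex : K.index = 2 := by
    show ((qchi.comp π).ker).index = 2
    rw [← MonoidHom.comap_ker, Subgroup.index_comap_of_surjective _ hπ]
    exact kq_index
  let ρ : K →* kq := (π.comp K.subtype).codRestrict kq fun k => k.2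
  have hρ : Function.Surjective ρ := by
    rintro ⟨q, hq⟩
    obtain ⟨w, rfl⟩ := hπ q
    exact ⟨⟨w, hq⟩, rfl⟩
  set t : W := e (x * x) with ht
  have htc : ∀ w : W, w * t = t * w := by
    intro w
    obtain ⟨u, rfl⟩ := e.surjective w
    rw [ht, ← map_mul, ← map_mul, Subgroup.mem_center_iff.1 (cen_le_center (Subgroup.mem_zpowers _)) u]
  have htK : t ∈ K := by
    show qchi (π t) = 1
    have : π t = 1 := by
      show QuotientGroup.mk' cen (e.symm (e (x * x))) = 1
      rw [e.symm_apply_apply]
      exact (QuotientGroup.eq_one_iff _).2 (Subgroup.mem_zpowers _)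
    rw [this, map_one]
  set s : K := ⟨t, htK⟩ with hs
  have hker : ρ.ker = Subgroup.center K := by
    apply le_antisymm
    · intro k hk
      have h1 : QuotientGroup.mk' cen (e.symm k.1) = 1 := congrArg Subtype.val hk
      obtain ⟨j, hj⟩ := Subgroup.mem_zpowers_iff.1 ((QuotientGroup.eq_one_iff _).1 h1)
      rw [Subgroup.mem_center_iff]
      intro k'
      apply Subtype.ext
      have e1 : k.1 = t ^ j := by rw [ht, ← map_zpow, hj, e.apply_symm_apply]
      show k'.1 * k.1 = k.1 * k'.1
      rw [e1]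
      exact (Commute.zpow_right (htc k'.1) j : Commute k'.1 (t ^ j))
    · intro k hk
      rw [MonoidHom.mem_ker]
      have : ρ k ∈ Subgroup.center kq := by
        rw [Subgroup.mem_center_iff]
        intro b
        obtain ⟨b', rfl⟩ := hρ b
        rw [← map_mul, ← map_mul, Subgroup.mem_center_iff.1 hk b']
      rwa [kq_center, Subgroup.mem_bot] at this
  have hcenter : Subgroup.center K = Subgroup.zpowers s := by
    rw [← hker]
    apply le_antisymm
    · intro k hk
      have h1 : QuotientGroup.mk' cen (e.symm k.1) = 1 := congrArg Subtype.val hk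
      obtain ⟨j, hj⟩ := Subgroup.mem_zpowers_iff.1 ((QuotientGroup.eq_one_iff _).1 h1)
      exact ⟨j, Subtype.ext (by show t ^ j = k.1; rw [ht, ← map_zpow, hj, e.apply_symm_apply])⟩
    · rw [Subgroup.zpowers_le, MonoidHom.mem_ker]
      apply Subtype.ext
      show QuotientGroup.mk' cen (e.symm (e (x * x))) = 1
      rw [e.symm_apply_apply]
      exact (QuotientGroup.eq_one_iff _).2 (Subgroup.mem_zpowers _)
  have hord : orderOf s = 2 := by
    refine orderOf_eq_prime ?_ ?_
    · apply Subtype.ext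
      show t ^ 2 = 1
      rw [ht, ← map_pow, ← e.map_one, ← x4]
      simp [pow_succ, mul_assoc]
    · intro h
      apply hx
      have : t = 1 := congrArg Subtype.val h
      exact e.map_eq_one_iff.1 this
  refine ⟨K, inferInstance, hKindex, ?_, ?_, ?_⟩
  · rw [hcenter, Nat.card_zpowers, hord]
  · exact ⟨((QuotientGroup.quotientMulEquivOfEq hker.symm).trans
      (QuotientGroup.quotientKerEquivOfSurjective ρ hρ)).trans eK⟩
  · intro L hL
    let a : K := ⟨e x, by
      show qchi (QuotientGroup.mk' cen (e.symm (e x))) = 1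
      rw [e.symm_apply_apply]; exact qchi_x⟩
    obtain ⟨⟨⟨c, hc⟩, ⟨l, hl⟩⟩, hcl⟩ := (hL.2 a : ∃ p : Subgroup.center K × L, (p.1 : K) * p.2 = a)
    have hcc : c * c = 1 := by
      rw [hcenter] at hc
      obtain ⟨j, rfl⟩ := Subgroup.mem_zpowers_iff.1 hc
      rw [← zpow_add, ← two_mul, zpow_mul, show s ^ (2 : ℤ) = s ^ (2 : ℕ) from zpow_natCast s 2,
        ← hord, pow_orderOf_eq_one, one_zpow]
    have haa : a * a = s := Subtype.ext (by show e x * e x = t; rw [ht, map_mul])
    have hsL : s ∈ L := by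
      have : a * a = l * l := by
        rw [← hcl]
        show c * l * (c * l) = l * l
        have hc' := Subgroup.mem_center_iff.1 hc
        calc c * l * (c * l) = c * (l * c) * l := by group
          _ = c * c * (l * l) := by rw [hc' l]; group
          _ = l * l := by rw [hcc, one_mul]
      rw [← haa, this]
      exact mul_mem hl hl
    have hsC : s ∈ Subgroup.center K := by rw [hcenter]; exact Subgroup.mem_zpowers s
    have h1 : s ∈ (⊥ : Subgroup K) := hL.disjoint.le_bot ⟨hsC, hsL⟩
    rw [Subgroup.mem_bot] at h1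
    rw [h1, orderOf_one] at hord
    exact absurd hord (by norm_num)

end Uni

/-- **The double cover**: three elements with the first ten Harada-Norton relators, the first of which does not
square to one, generate a group with a normal subgroup of index two that is a non-split double cover of HS. -/
theorem exists_cover {G : Type*} [Group G] (x y z : G) (h : ∀ u ∈ stepP.words, pval (lett x y z) u = 1)
    (hx : x * x ≠ 1) :
    ∃ K : Subgroup (Subgroup.closure ({x, y, z} : Set G)),
      K.Normal ∧ K.index = 2 ∧ IsNonsplitDoubleCover K Spor.HS := by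
  have hlift : ∀ r ∈ {r | ∃ u ∈ stepP.words,
      r = pval (lett (FreeGroup.of (0 : Fin 3)) (FreeGroup.of 1) (FreeGroup.of 2)) u},
      FreeGroup.lift ![x, y, z] r = 1 := by
    rintro r ⟨u, hu, rfl⟩
    rw [map_pval]
    have e : (fun l => FreeGroup.lift ![x, y, z]
        (lett (FreeGroup.of (0 : Fin 3)) (FreeGroup.of 1) (FreeGroup.of 2) l)) = lett x y z := by
      funext l
      rcases Nat.lt_or_ge l 6 with h | h
      · interval_cases l <;> simp [lett]
      · simp [lett, List.getD_eq_getElem?_getD, h]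
    rw [e]
    exact h u hu
  let f : Uni →* G := PresentedGroup.toGroup hlift
  have hfx : f Uni.x = x := by simp [f, Uni.x]
  have hr : f.range = Subgroup.closure ({x, y, z} : Set G) := by
    rw [MonoidHom.range_eq_map, ← Uni.closure_eq_top, MonoidHom.map_closure]
    simp [f, Uni.x, Uni.y, Uni.z, Set.image_insert_eq]
  have hf : f (Uni.x * Uni.x) ≠ 1 := by rw [map_mul, hfx]; exact hx
  refine Uni.cover_of_equiv ((MonoidHom.ofInjective (Uni.ker_trivial f hf)).trans (MulEquiv.subgroupCongr hr)) ?_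
  intro h1
  exact hf (by rw [h1, map_one])

end Cfsg.Agent.HNBound
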