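import Cfsg.Agent.CosetEnum.Bound

/-! Certified loops give membership in the subgroup of a certificate. -/

set_option autoImplicit false

namespace Cfsg.Agent.HNBound

open Cfsg.Agent.CosetCert Cfsg.Agent.CosetEnum

theorem loop_mem {G : Type*} [Group G] {B : BoundData}
    (hnode : B.node.get 32 0 = 0)
    (hrules : ∀ i < B.nr, B.ruleOK (B.rules.get B.rbits i) = true)
    (hfacts : ∀ k < B.nf, B.cert.factOK k = true)
    (hsubs : ∀ j ∈ List.range B.subs.length, unpack 65536 (B.cert.subw j) = B.subs.getD j [])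
    (g : ℕ → G) (hg0 : g 0 = 1) (hginv : ∀ l, g (B.inv l) = (g l)⁻¹)
    (hrel : ∀ u ∈ B.words, pval g u = 1) (K : Subgroup G) (hsub : ∀ u ∈ B.subs, pval g u ∈ K)
    (off n : ℕ) (w : List ℕ) (hn : n ≤ 65536)
    (h : B.cert.walk B.nf 0 n off 0 (w.foldr (fun l r => Nat.add (Nat.mul r 256) l) 0) = true)
    (hw : unpack 65536 (w.foldr (fun l r => Nat.add (Nat.mul r 256) l) 0) = w) :
    pval g w ∈ K := by
  set B0 : BoundData := { B with letters := [], N := 1 } with hB0
  have hV : B0.Valid :=
    { pos := Nat.one_pos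
      node_zero := hnode
      subs_unpack := hsubs
      rules_ok := hrules
      facts := hfacts
      edge := fun i _ l hl => absurd hl (by simp [hB0]) }
  set q₀ : G ⧸ K := ((1 : G) : G ⧸ K) with hq₀
  obtain ⟨v, hv0, hv⟩ := cert_sound (act := g) B.cert hg0 hginv q₀ B.nf
    (BoundData.cert_rule hV g hg0 hginv hrel) (fun j hj => by
      rw [hsubs j (List.mem_range.2 hj)]
      have hj' : j < B.subs.length := hj
      have hmem : B.subs.getD j [] ∈ B.subs := by
        rw [List.getD_eq_getElem _ _ hj']; exact List.getElem_mem hj'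
      rw [hq₀, MulAction.Quotient.smul_coe, smul_eq_mul, mul_one]
      exact QuotientGroup.eq.2 (by simpa using Subgroup.inv_mem _ (hsub _ hmem))) hfacts
  have h1 := walk_sound B.cert hg0 hginv v B.nf 0 hv n off 0 _ 65536 hn h
  rw [hw, hv0, hq₀, MulAction.Quotient.smul_coe, smul_eq_mul, mul_one] at h1
  simpa using Subgroup.inv_mem _ (QuotientGroup.eq.1 h1)

end Cfsg.Agent.HNBound
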