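import Cfsg.Agent.HNBound.StepC

/-! Machine-generated checks. -/

set_option maxRecDepth 100000
set_option Elab.async false

namespace Cfsg.Agent.HNBound

open Cfsg.Agent.CosetCert Cfsg.Agent.CosetEnum

theorem stepC_fb16 : allB (fun k => Nat.ble stepC.nf k || stepC.cert.factOK k) 11 32768 = true := by
  decide +kernel

theorem stepC_fb17 : allB (fun k => Nat.ble stepC.nf k || stepC.cert.factOK k) 11 34816 = true := by
  decide +kernel

theorem stepC_fb18 : allB (fun k => Nat.ble stepC.nf k || stepC.cert.factOK k) 11 36864 = true := by
  decide +kernel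

theorem stepC_fb19 : allB (fun k => Nat.ble stepC.nf k || stepC.cert.factOK k) 11 38912 = true := by
  decide +kernel

theorem stepC_fb20 : allB (fun k => Nat.ble stepC.nf k || stepC.cert.factOK k) 11 40960 = true := by
  decide +kernel

theorem stepC_fb21 : allB (fun k => Nat.ble stepC.nf k || stepC.cert.factOK k) 11 43008 = true := by
  decide +kernel

theorem stepC_fb22 : allB (fun k => Nat.ble stepC.nf k || stepC.cert.factOK k) 11 45056 = true := by
  decide +kernel

theorem stepC_fb23 : allB (fun k => Nat.ble stepC.nf k || stepC.cert.factOK k) 11 47104 = true := by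
  decide +kernel

end Cfsg.Agent.HNBound
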