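import Cfsg.Agent.HNBound.StepC

/-! Machine-generated checks. -/

set_option maxRecDepth 100000
set_option Elab.async false

namespace Cfsg.Agent.HNBound

open Cfsg.Agent.CosetCert Cfsg.Agent.CosetEnum

theorem stepC_fb40 : allB (fun k => Nat.ble stepC.nf k || stepC.cert.factOK k) 11 81920 = true := by
  decide +kernel

theorem stepC_fb41 : allB (fun k => Nat.ble stepC.nf k || stepC.cert.factOK k) 11 83968 = true := by
  decide +kernel

theorem stepC_fb42 : allB (fun k => Nat.ble stepC.nf k || stepC.cert.factOK k) 11 86016 = true := by
  decide +kernel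

theorem stepC_fb43 : allB (fun k => Nat.ble stepC.nf k || stepC.cert.factOK k) 11 88064 = true := by
  decide +kernel

theorem stepC_fb44 : allB (fun k => Nat.ble stepC.nf k || stepC.cert.factOK k) 11 90112 = true := by
  decide +kernel

theorem stepC_fb45 : allB (fun k => Nat.ble stepC.nf k || stepC.cert.factOK k) 11 92160 = true := by
  decide +kernel

theorem stepC_fb46 : allB (fun k => Nat.ble stepC.nf k || stepC.cert.factOK k) 11 94208 = true := by
  decide +kernel

theorem stepC_fb47 : allB (fun k => Nat.ble stepC.nf k || stepC.cert.factOK k) 11 96256 = true := by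
  decide +kernel

end Cfsg.Agent.HNBound
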