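import Cfsg.Agent.HNBound.StepCFacts0
import Cfsg.Agent.HNBound.StepCFacts1
import Cfsg.Agent.HNBound.StepCFacts2
import Cfsg.Agent.HNBound.StepCFacts3
import Cfsg.Agent.HNBound.StepCFacts4
import Cfsg.Agent.HNBound.StepCFacts5

/-! Machine-generated checks. -/

set_option maxRecDepth 100000

namespace Cfsg.Agent.HNBound

open Cfsg.Agent.CosetCert Cfsg.Agent.CosetEnum

theorem stepC_facts : ∀ k < stepC.nf, stepC.cert.factOK k = true := by
  have s := fun (b : ℕ) (p : ∀ i < b, i < stepC.nf → stepC.cert.factOK i = true) (h : allB (fun k => Nat.ble stepC.nf k || stepC.cert.factOK k) 11 b = true) =>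
    below_step (f := fun k => Nat.ble stepC.nf k || stepC.cert.factOK k) p (fun i h hi => of_ble_or h hi) h
  have a0 : ∀ i < 0, i < stepC.nf → stepC.cert.factOK i = true := below_zero
  have a1 := s 0 a0 stepC_fb0
  have a2 := s 2048 a1 stepC_fb1
  have a3 := s 4096 a2 stepC_fb2
  have a4 := s 6144 a3 stepC_fb3
  have a5 := s 8192 a4 stepC_fb4
  have a6 := s 10240 a5 stepC_fb5
  have a7 := s 12288 a6 stepC_fb6
  have a8 := s 14336 a7 stepC_fb7
  have a9 := s 16384 a8 stepC_fb8
  have a10 := s 18432 a9 stepC_fb9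
  have a11 := s 20480 a10 stepC_fb10
  have a12 := s 22528 a11 stepC_fb11
  have a13 := s 24576 a12 stepC_fb12
  have a14 := s 26624 a13 stepC_fb13
  have a15 := s 28672 a14 stepC_fb14
  have a16 := s 30720 a15 stepC_fb15
  have a17 := s 32768 a16 stepC_fb16
  have a18 := s 34816 a17 stepC_fb17
  have a19 := s 36864 a18 stepC_fb18
  have a20 := s 38912 a19 stepC_fb19
  have a21 := s 40960 a20 stepC_fb20
  have a22 := s 43008 a21 stepC_fb21
  have a23 := s 45056 a22 stepC_fb22
  have a24 := s 47104 a23 stepC_fb23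
  have a25 := s 49152 a24 stepC_fb24
  have a26 := s 51200 a25 stepC_fb25
  have a27 := s 53248 a26 stepC_fb26
  have a28 := s 55296 a27 stepC_fb27
  have a29 := s 57344 a28 stepC_fb28
  have a30 := s 59392 a29 stepC_fb29
  have a31 := s 61440 a30 stepC_fb30
  have a32 := s 63488 a31 stepC_fb31
  have a33 := s 65536 a32 stepC_fb32
  have a34 := s 67584 a33 stepC_fb33
  have a35 := s 69632 a34 stepC_fb34
  have a36 := s 71680 a35 stepC_fb35
  have a37 := s 73728 a36 stepC_fb36
  have a38 := s 75776 a37 stepC_fb37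
  have a39 := s 77824 a38 stepC_fb38
  have a40 := s 79872 a39 stepC_fb39
  have a41 := s 81920 a40 stepC_fb40
  have a42 := s 83968 a41 stepC_fb41
  have a43 := s 86016 a42 stepC_fb42
  have a44 := s 88064 a43 stepC_fb43
  have a45 := s 90112 a44 stepC_fb44
  have a46 := s 92160 a45 stepC_fb45
  have a47 := s 94208 a46 stepC_fb46
  have a48 := s 96256 a47 stepC_fb47
  exact fun k hk => a48 k (lt_of_lt_of_le hk (by decide +kernel)) hk

theorem stepC_rules : ∀ i < stepC.nr, stepC.ruleOK (stepC.rules.get stepC.rbits i) = true := by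
  have h : allB (fun i => Nat.ble stepC.nr i || stepC.ruleOK (stepC.rules.get stepC.rbits i)) 8 0 = true := by
    decide +kernel
  exact fun i hi => of_ble_or (allB_spec_zero h (by decide +kernel) hi) hi

theorem stepC_subs : ∀ j ∈ List.range stepC.subs.length, unpack 65536 (stepC.cert.subw j) = stepC.subs.getD j [] := by
  decide +kernel

end Cfsg.Agent.HNBound
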