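import Cfsg.Agent.HNBound.StepXFacts0
import Cfsg.Agent.HNBound.StepXFacts1

/-! Machine-generated checks. -/

set_option maxRecDepth 100000

namespace Cfsg.Agent.HNBound

open Cfsg.Agent.CosetCert Cfsg.Agent.CosetEnum

theorem stepX_facts : ∀ k < stepX.nf, stepX.cert.factOK k = true := by
  have s := fun (b : ℕ) (p : ∀ i < b, i < stepX.nf → stepX.cert.factOK i = true) (h : allB (fun k => Nat.ble stepX.nf k || stepX.cert.factOK k) 11 b = true) =>
    below_step (f := fun k => Nat.ble stepX.nf k || stepX.cert.factOK k) p (fun i h hi => of_ble_or h hi) h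
  have a0 : ∀ i < 0, i < stepX.nf → stepX.cert.factOK i = true := below_zero
  have a1 := s 0 a0 stepX_fb0
  have a2 := s 2048 a1 stepX_fb1
  have a3 := s 4096 a2 stepX_fb2
  have a4 := s 6144 a3 stepX_fb3
  have a5 := s 8192 a4 stepX_fb4
  have a6 := s 10240 a5 stepX_fb5
  have a7 := s 12288 a6 stepX_fb6
  have a8 := s 14336 a7 stepX_fb7
  have a9 := s 16384 a8 stepX_fb8
  have a10 := s 18432 a9 stepX_fb9
  have a11 := s 20480 a10 stepX_fb10
  have a12 := s 22528 a11 stepX_fb11
  have a13 := s 24576 a12 stepX_fb12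
  have a14 := s 26624 a13 stepX_fb13
  exact fun k hk => a14 k (lt_of_lt_of_le hk (by decide +kernel)) hk

theorem stepX_rules : ∀ i < stepX.nr, stepX.ruleOK (stepX.rules.get stepX.rbits i) = true := by
  have h : allB (fun i => Nat.ble stepX.nr i || stepX.ruleOK (stepX.rules.get stepX.rbits i)) 7 0 = true := by
    decide +kernel
  exact fun i hi => of_ble_or (allB_spec_zero h (by decide +kernel) hi) hi

theorem stepX_subs : ∀ j ∈ List.range stepX.subs.length, unpack 65536 (stepX.cert.subw j) = stepX.subs.getD j [] := by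
  decide +kernel

end Cfsg.Agent.HNBound
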