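import Cfsg.Agent.HNBound.Perm
import Cfsg.Agent.HNBound.Loop
import Cfsg.Agent.HNBound.Central
import Cfsg.Agent.HNBound.StepPValid
import Cfsg.Agent.HNBound.StepQValid
import Cfsg.Agent.HNBound.StepCValid
import Cfsg.Agent.HNBound.StepXValid

/-!
# The order of a group with three generators that satisfy the first ten Harada-Norton relators

`Nat.card ⟨x, y, z⟩ ≤ 2 * 352 * 252000`, and `⟨x, y⟩` has index at most `352`.
-/

set_option autoImplicit false
set_option maxRecDepth 100000

namespace Cfsg.Agent.HNBound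

open Cfsg.Agent.CosetCert Cfsg.Agent.CosetEnum

/-- The five letters. -/
def lett {G : Type*} [Group G] (x y z : G) (l : ℕ) : G := [1, x, x⁻¹, y, y⁻¹, z].getD l 1

/-- The three letters. -/
def lett3 {G : Type*} [Group G] (x y : G) (l : ℕ) : G := [1, x, y, y⁻¹].getD l 1

theorem lett_inv {G : Type*} [Group G] {x y z : G} (hz : z⁻¹ = z) (l : ℕ) :
    lett x y z (stepP.invl.getD l 0) = (lett x y z l)⁻¹ := by
  rcases Nat.lt_or_ge l 6 with h | h
  · interval_cases l <;> simp [stepP, lett, hz]
  · rw [List.getD_eq_default _ _ (by simpa [stepP] using h)]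
    simp [lett, List.getD_eq_getElem?_getD, h]

theorem lett3_inv {G : Type*} [Group G] {x y : G} (hx : x⁻¹ = x) (l : ℕ) :
    lett3 x y ([0, 1, 3, 2].getD l 0) = (lett3 x y l)⁻¹ := by
  rcases Nat.lt_or_ge l 4 with h | h
  · interval_cases l <;> simp [lett3, hx]
  · rw [List.getD_eq_default _ _ (by simpa using h)]
    simp [lett3, List.getD_eq_getElem?_getD, h]

theorem pval_congr {G : Type*} [Group G] (g g' : ℕ → G) (σ : ℕ → ℕ) :
    ∀ u : List ℕ, (∀ l ∈ u, g l = g' (σ l)) → pval g u = pval g' (u.map σ) := by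
  intro u
  induction u with
  | nil => intro _; rfl
  | cons l ls ih =>
    intro h
    show pval g ls * g l = pval g' (ls.map σ) * g' (σ l)
    rw [ih fun m hm => h m (List.mem_cons_of_mem _ hm), h l List.mem_cons_self]

theorem map_pval {G H : Type*} [Group G] [Group H] (f : G →* H) (g : ℕ → G) (u : List ℕ) :
    f (pval g u) = pval (fun l => f (g l)) u := by
  induction u with
  | nil => exact f.map_one
  | cons l ls ih =>
    show f (pval g ls * g l) = pval _ ls * f (g l)
    rw [map_mul, ih]

theorem pval_lett3_mem {G : Type*} [Group G] (x y : G) (u : List ℕ) :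
    pval (lett3 x y) u ∈ Subgroup.closure ({x, y} : Set G) := by
  induction u with
  | nil => exact one_mem _
  | cons l ls ih =>
    refine mul_mem ih ?_
    show lett3 x y l ∈ _
    rcases Nat.lt_or_ge l 4 with h | h
    · interval_cases l
      · exact one_mem _
      · exact Subgroup.subset_closure (by simp [lett3])
      · exact Subgroup.subset_closure (by simp [lett3])
      · exact inv_mem (Subgroup.subset_closure (by simp))
    · simp [lett3, List.getD_eq_getElem?_getD, h]

/-- The universal group. -/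
abbrev Uni : Type :=
  PresentedGroup {r | ∃ u ∈ stepP.words, r = pval (lett (FreeGroup.of (0 : Fin 3)) (FreeGroup.of 1) (FreeGroup.of 2)) u}

namespace Uni

/-- `x` -/
abbrev x : Uni := PresentedGroup.of 0
/-- `y` -/
abbrev y : Uni := PresentedGroup.of 1
/-- `z` -/
abbrev z : Uni := PresentedGroup.of 2

theorem rel {u : List ℕ} (hu : u ∈ stepP.words) : pval (lett x y z) u = 1 := by
  have e : (fun l => PresentedGroup.mk {r | ∃ u ∈ stepP.words,
      r = pval (lett (FreeGroup.of (0 : Fin 3)) (FreeGroup.of 1) (FreeGroup.of 2)) u}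
      (lett (FreeGroup.of (0 : Fin 3)) (FreeGroup.of 1) (FreeGroup.of 2) l)) = lett x y z := by
    funext l
    rcases Nat.lt_or_ge l 6 with h | h
    · interval_cases l <;> simp [lett, x, y, z, PresentedGroup.of]
    · simp [lett, List.getD_eq_getElem?_getD, h]
  rw [← e, ← map_pval]
  exact PresentedGroup.one_of_mem ⟨u, hu, rfl⟩

theorem closure_eq_top : Subgroup.closure ({x, y, z} : Set Uni) = ⊤ := by
  rw [← PresentedGroup.closure_range_of]
  congr 1
  ext g
  constructor
  · rintro (rfl | rfl | rfl) <;> exact ⟨_, rfl⟩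
  · rintro ⟨i, rfl⟩
    fin_cases i <;> simp [x, y, z]

/-- The action on 352 points. -/
noncomputable def act : Uni →* Equiv.Perm (Fin 352) :=
  PresentedGroup.toGroup (f := ![lperm 1, lperm 3, lperm 5]) (by
    rintro r ⟨u, hu, rfl⟩
    rw [map_pval]
    have e : (fun l => FreeGroup.lift ![lperm 1, lperm 3, lperm 5]
        (lett (FreeGroup.of (0 : Fin 3)) (FreeGroup.of 1) (FreeGroup.of 2) l)) = lperm := by
      funext l
      rcases Nat.lt_or_ge l 6 with h | h
      · interval_cases l <;> simp [lett, lperm_zero, ← lperm_inv, pinv, stepP]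
      · have : lperm l = 1 := by ext i; exact step_out h i
        simp [lett, List.getD_eq_getElem?_getD, h, this]
    rw [e]
    exact pval_eq_one (relators_ok u hu))

theorem act_x : act x = lperm 1 := by simp [act, x]
theorem act_y : act y = lperm 3 := by simp [act, y]
theorem act_z : act z = lperm 5 := by simp [act, z]

theorem act_lett (l : ℕ) : act (lett x y z l) = lperm l := by
  rcases Nat.lt_or_ge l 6 with h | h
  · interval_cases l <;> simp [lett, act_x, act_y, act_z, lperm_zero, ← lperm_inv, pinv, stepP]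
  · have : lperm l = 1 := by ext i; exact step_out h i
    simp [lett, List.getD_eq_getElem?_getD, h, this]

theorem x_sq_act : act (x * x) = 1 := by
  rw [map_mul, act_x]
  have := pval_eq_one sq_ok
  simpa [pval] using this

theorem y6 : y ^ 6 = 1 := by
  have h := rel (show [3, 3, 3, 3, 3, 3] ∈ stepP.words by decide +kernel)
  simpa [pval, lett, pow_succ] using h

theorem y_power_eq_one {g : Uni} (hg : g ∈ Subgroup.zpowers y) (ha : act g = 1) : g = 1 := by
  obtain ⟨k, rfl⟩ := Subgroup.mem_zpowers_iff.1 hg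
  rw [map_zpow, act_y] at ha
  have h6 : orderOf (lperm 3) = 6 := by
    have hp : (lperm 3) ^ 6 = 1 := by rw [← act_y, ← map_pow, y6, map_one]
    rw [orderOf_eq_iff (by norm_num)]
    refine ⟨hp, fun m hm hm0 h => ?_⟩
    rcases y_ok m hm with rfl | ⟨i, hi, hne⟩
    · exact absurd hm0 (lt_irrefl 0)
    · have e : ∀ j, pval lperm (List.replicate j 3) = lperm 3 ^ j := by
        intro j
        induction j with
        | zero => rfl
        | succ j ih =>
          show pval lperm (List.replicate j 3) * lperm 3 = _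
          rw [ih, pow_succ]
      apply hne
      have := pval_apply (List.replicate m 3) ⟨i, hi⟩
      rw [e, h] at this
      exact this.symm
  have := orderOf_dvd_iff_zpow_eq_one.2 ha
  rw [h6] at this
  obtain ⟨m, rfl⟩ := this
  rw [zpow_mul, show ((6 : ℕ) : ℤ) = (6 : ℤ) from rfl, show y ^ (6 : ℤ) = y ^ (6 : ℕ) from zpow_natCast y 6,
    y6, one_zpow]

theorem z_inv : z⁻¹ = z := by
  have h := rel (show [5, 5] ∈ stepP.words by decide +kernel)
  exact inv_eq_of_mul_eq_one_left (by simpa [pval, lett] using h)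

theorem x4 : x ^ 4 = 1 := by
  refine y_power_eq_one ?_ ?_
  · have h := loop_mem (B := stepX) (by decide +kernel) stepX_rules stepX_facts stepX_subs
      (lett x y z) rfl (fun l => lett_inv z_inv l)
      (fun u hu => rel ((by decide +kernel : ∀ u ∈ stepX.words, u ∈ stepP.words) u hu))
      (Subgroup.zpowers y) (fun u hu => by
        obtain rfl : u = [3] := (by decide +kernel : ∀ u ∈ stepX.subs, u = [3]) u hu
        simp [pval, lett])
      62771 4 [1, 1, 1, 1] (by norm_num) (by decide +kernel) (by decide +kernel)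
    simpa [pval, lett, pow_succ] using h
  · rw [show x ^ 4 = x * x * (x * x) by simp [pow_succ, mul_assoc], map_mul, x_sq_act, one_mul]

theorem y_conj_sq : y * (x * x) * y⁻¹ = x * x := by
  have h := rel (show [4, 1, 1, 3, 1, 1] ∈ stepP.words by decide +kernel)
  have h2 : x * x * (y * (x * x) * y⁻¹) = 1 := by simpa [pval, lett, mul_assoc] using h
  have h3 : x * x * (x * x) = 1 := by rw [← x4]; simp [pow_succ, mul_assoc]
  exact mul_left_cancel (h2.trans h3.symm)

theorem z_conj_sq : z * (x * x) * z⁻¹ = x * x := by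
  have h := rel (show [1, 5, 1, 5] ∈ stepP.words by decide +kernel)
  have h2 : z * x * z = x⁻¹ := eq_inv_of_mul_eq_one_left (by simpa [pval, lett, mul_assoc] using h)
  have h3 : x * x * (x * x) = 1 := by rw [← x4]; simp [pow_succ, mul_assoc]
  have hzz : z * z = 1 := by
    nth_rewrite 1 [← z_inv]
    rw [inv_mul_cancel]
  calc z * (x * x) * z⁻¹ = (z * x * z) * (z * x * z) := by
        rw [z_inv]; simp only [mul_assoc]; rw [← mul_assoc z z, hzz, one_mul]
    _ = x⁻¹ * x⁻¹ := by rw [h2]
    _ = x * x := by rw [← mul_inv_rev, inv_eq_of_mul_eq_one_left h3]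

/-- The subgroup of order at most two. -/
abbrev cen : Subgroup Uni := Subgroup.zpowers (x * x)

theorem cen_le_center : cen ≤ Subgroup.center Uni := by
  rw [Subgroup.zpowers_le, Subgroup.mem_center_iff]
  intro g
  have hmem : g ∈ Subgroup.closure ({x, y, z} : Set Uni) := by rw [closure_eq_top]; trivial
  have key : ∀ a : Uni, a * (x * x) * a⁻¹ = x * x → a * (x * x) = x * x * a :=
    fun a ha => by
      calc a * (x * x) = a * (x * x) * a⁻¹ * a := by group
        _ = x * x * a := by rw [ha]
  induction hmem using Subgroup.closure_induction with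
  | mem a ha =>
    rcases ha with rfl | rfl | rfl
    · exact (mul_assoc _ _ _).symm
    · exact key _ y_conj_sq
    · exact key _ z_conj_sq
  | one => simp
  | mul a b _ _ ha hb => rw [mul_assoc, hb, ← mul_assoc, ha, mul_assoc]
  | inv a _ ha =>
    calc a⁻¹ * (x * x) = a⁻¹ * (x * x * a) * a⁻¹ := by group
      _ = x * x * a⁻¹ := by rw [← ha]; group

instance cen_normal : cen.Normal :=
  ⟨fun n hn g => by
    have := Subgroup.mem_center_iff.1 (cen_le_center hn) g
    rw [this, mul_inv_cancel_right]; exact hn⟩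

theorem cen_card : Nat.card cen ≤ 2 := by
  rw [Nat.card_zpowers]
  refine orderOf_le_of_pow_eq_one (by norm_num) ?_
  rw [← x4]; simp [pow_succ, mul_assoc]

/-- The quotient. -/
abbrev Q : Type := Uni ⧸ cen

/-- `x` in the quotient -/
abbrev qx : Q := QuotientGroup.mk' cen x
/-- `y` in the quotient -/
abbrev qy : Q := QuotientGroup.mk' cen y
/-- `z` in the quotient -/
abbrev qz : Q := QuotientGroup.mk' cen z

/-- The action of the quotient. -/
noncomputable def qact : Q →* Equiv.Perm (Fin 352) :=
  QuotientGroup.lift cen act (by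
    rw [Subgroup.zpowers_le, MonoidHom.mem_ker]; exact x_sq_act)

theorem qact_mk (g : Uni) : qact (QuotientGroup.mk' cen g) = act g := rfl

theorem qx_inv : qx⁻¹ = qx := by
  refine inv_eq_of_mul_eq_one_left ?_
  rw [← map_mul]
  exact (QuotientGroup.eq_one_iff _).2 (Subgroup.mem_zpowers _)

/-- Letters from five to three. -/
def to3 (l : ℕ) : ℕ := [0, 1, 1, 2, 3].getD l 0

theorem mk_lett (l : ℕ) (h : l < 5) : QuotientGroup.mk' cen (lett x y z l) = lett3 qx qy (to3 l) := by
  interval_cases l
  · exact map_one _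
  · rfl
  · show QuotientGroup.mk' cen x⁻¹ = qx
    rw [map_inv]; exact qx_inv
  · rfl
  · exact map_inv _ _

theorem rel3 : ∀ u ∈ stepC.words, pval (lett3 qx qy) u = 1 := by
  intro u hu
  rcases (by decide +kernel : ∀ u ∈ stepC.words, u = [1, 1] ∨
      ∃ w ∈ stepP.words, u = w.map to3 ∧ ∀ l ∈ w, l < 5) u hu with rfl | ⟨w, hw, rfl, h5⟩
  · show 1 * qx * qx = 1
    rw [one_mul]
    nth_rewrite 1 [← qx_inv]
    exact inv_mul_cancel _
  · rw [← pval_congr (fun l => QuotientGroup.mk' cen (lett x y z l)) _ to3 w fun l hl => mk_lett l (h5 l hl),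
      ← map_pval, rel hw, map_one]

theorem qy_inj {g : Q} (hg : g ∈ Subgroup.zpowers qy) (ha : qact g = 1) : g = 1 := by
  obtain ⟨k, rfl⟩ := Subgroup.mem_zpowers_iff.1 hg
  rw [← map_zpow] at ha ⊢
  rw [qact_mk] at ha
  rw [y_power_eq_one (Subgroup.mem_zpowers_iff.2 ⟨k, rfl⟩) ha, map_one]

/-- The element `c`. -/
noncomputable def qc : Q := pval (lett3 qx qy) cWord

theorem qact_lett3 (l : ℕ) : qact (lett3 qx qy l) = lperm (emb3 l) := by
  rcases Nat.lt_or_ge l 4 with h | h
  · interval_cases l
    · exact (map_one _).trans lperm_zero.symm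
    · exact (qact_mk _).trans act_x
    · exact (qact_mk _).trans act_y
    · show qact qy⁻¹ = lperm 4
      rw [map_inv, qact_mk, act_y]; exact (lperm_inv 3).symm
  · simp [lett3, emb3, List.getD_eq_getElem?_getD, h, lperm_zero]

theorem qact_qc : qact qc = 1 := by
  rw [qc, map_pval, pval_congr _ lperm emb3 cWord fun l _ => qact_lett3 l]
  exact pval_eq_one c_ok

theorem loopC (i off n : ℕ) (w : List ℕ) (hn : n ≤ 65536)
    (_hi : stepCLoops.getD i (0, 0, []) = (off, n, w))
    (h : stepC.cert.walk stepC.nf 0 n off 0 (w.foldr (fun l r => Nat.add (Nat.mul r 256) l) 0) = true)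
    (hw : unpack 65536 (w.foldr (fun l r => Nat.add (Nat.mul r 256) l) 0) = w)
    (ha : qact (pval (lett3 qx qy) w) = 1) : pval (lett3 qx qy) w = 1 :=
  qy_inj (loop_mem (B := stepC) (by decide +kernel) stepC_rules stepC_facts stepC_subs
    (lett3 qx qy) rfl (fun l => lett3_inv qx_inv l) rel3
    (Subgroup.zpowers qy) (fun u hu => by
      obtain rfl : u = [2] := (by decide +kernel : ∀ u ∈ stepC.subs, u = [2]) u hu
      show 1 * qy ∈ _
      rw [one_mul]; exact Subgroup.mem_zpowers _) off n w hn h hw) ha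

theorem pval_invRev {G : Type*} [Group G] (g : ℕ → G) (inv : ℕ → ℕ) (h : ∀ l, g (inv l) = (g l)⁻¹) (u : List ℕ) :
    pval g (u.reverse.map inv) = (pval g u)⁻¹ := by
  induction u with
  | nil => simp [pval]
  | cons l ls ih =>
    rw [List.reverse_cons, List.map_append, pval_append, ih]
    simp [pval, h, mul_inv_rev]

theorem qc_y : qy * qc * qy⁻¹ = qc := by
  have hw : pval (lett3 qx qy) ([3] ++ cWord.reverse.map (fun l => [0, 1, 3, 2].getD l 0) ++ [2] ++ cWord)
      = qc * qy * qc⁻¹ * qy⁻¹ := by
    rw [pval_append, pval_append, pval_append, pval_invRev _ _ (lett3_inv qx_inv), ← qc]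
    simp [pval, lett3, mul_assoc]
  have h := loopC 0 212853 42 ([3] ++ cWord.reverse.map (fun l => [0, 1, 3, 2].getD l 0) ++ [2] ++ cWord)
    (by norm_num) (by decide +kernel) (by decide +kernel) (by decide +kernel) (by
      rw [hw, map_mul, map_mul, map_mul, map_inv, map_inv, qact_qc]; simp)
  rw [hw] at h
  have h1 : qc * qy = qy * qc := by
    calc qc * qy = qc * qy * qc⁻¹ * qy⁻¹ * (qy * qc) := by group
      _ = qy * qc := by rw [h, one_mul]
  rw [← h1, mul_inv_cancel_right]

theorem qc_x : qx * qc * qx⁻¹ = qc⁻¹ := by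
  have hw : pval (lett3 qx qy) (cWord ++ [1] ++ cWord ++ [1]) = qx * qc * (qx * qc) := by
    rw [pval_append, pval_append, pval_append, ← qc]
    simp [pval, lett3, mul_assoc]
  have h := loopC 1 212895 42 (cWord ++ [1] ++ cWord ++ [1])
    (by norm_num) (by decide +kernel) (by decide +kernel) (by decide +kernel) (by
      rw [hw, map_mul, map_mul, qact_qc, mul_one, ← map_mul, ← map_mul, qact_mk, x_sq_act])
  rw [hw] at h
  rw [qx_inv]
  exact eq_inv_of_mul_eq_one_left (by rw [mul_assoc]; exact h)

theorem qc_cube : qc ^ 3 = 1 := by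
  have hw : pval (lett3 qx qy) (cWord ++ cWord ++ cWord) = qc ^ 3 := by
    rw [pval_append, pval_append, ← qc, pow_succ, pow_two, mul_assoc]
  have h := loopC 2 212937 60 (cWord ++ cWord ++ cWord)
    (by norm_num) (by decide +kernel) (by decide +kernel) (by decide +kernel) (by
      rw [hw, map_pow, qact_qc, one_pow])
  rwa [hw] at h

/-- The subgroup generated by `x` and `y`. -/
abbrev hs : Subgroup Q := Subgroup.closure ({qx, qy} : Set Q)

theorem qc_mem : qc ∈ hs := pval_lett3_mem qx qy cWord

theorem hs_normalizes : hs ≤ Subgroup.normalizer ((Subgroup.zpowers qc : Subgroup Q) : Set Q) := by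
  rw [Subgroup.closure_le]
  intro g hg
  rw [SetLike.mem_coe, Subgroup.mem_normalizer_iff]
  have key : g * qc * g⁻¹ = qc ∨ g * qc * g⁻¹ = qc⁻¹ := by
    rcases hg with rfl | rfl
    · exact Or.inr qc_x
    · exact Or.inl qc_y
  intro n
  simp only [SetLike.mem_coe, Subgroup.mem_zpowers_iff]
  constructor
  · rintro ⟨k, rfl⟩
    rw [← conj_zpow]
    rcases key with h | h <;> rw [h]
    · exact ⟨k, rfl⟩
    · exact ⟨-k, by simp⟩
  · rintro ⟨k, hk⟩
    have e : n = g⁻¹ * qc ^ k * g := by rw [hk]; group
    rcases key with h | h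
    · exact ⟨k, by rw [e]; nth_rewrite 2 [← h]; rw [conj_zpow]; group⟩
    · exact ⟨-k, by
        have h2 : g * qc ^ (-k) * g⁻¹ = qc ^ k := by rw [← conj_zpow, h]; simp
        rw [e, ← h2]; group⟩

/-- The kernel of the action on `hs`. -/
theorem hs_bound : Finite hs ∧ Nat.card hs ≤ 252000 * Nat.card (Subgroup.zpowers qc) ∧ ∀ h ∈ hs, qact h = 1 → h ∈ Subgroup.zpowers qc := by
  classical
  haveI hn : ((Subgroup.zpowers qc).subgroupOf hs).Normal :=
    Subgroup.normal_subgroupOf_iff_le_normalizer
      (by rw [Subgroup.zpowers_le]; exact qc_mem) |>.2 hs_normalizes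
  set C := (Subgroup.zpowers qc).subgroupOf hs with hC
  let hx : hs := ⟨qx, Subgroup.subset_closure (by simp)⟩
  let hy : hs := ⟨qy, Subgroup.subset_closure (by simp)⟩
  set π := QuotientGroup.mk' C with hπ
  have e1 : ∀ l, ((lett3 hx hy l : hs) : Q) = lett3 qx qy l := by
    intro l
    rcases Nat.lt_or_ge l 4 with h | h
    · interval_cases l <;> rfl
    · simp [lett3, List.getD_eq_getElem?_getD, h]
  have e2 : ∀ u, ((pval (lett3 hx hy) u : hs) : Q) = pval (lett3 qx qy) u := by
    intro u
    rw [show ((pval (lett3 hx hy) u : hs) : Q) = hs.subtype (pval (lett3 hx hy) u) from rfl, map_pval]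
    exact congrArg (fun f => pval f u) (funext e1)
  set g3 : ℕ → hs ⧸ C := fun l => π (lett3 hx hy l) with hg3
  have hgx : (hx : hs)⁻¹ = hx := Subtype.ext qx_inv
  have hyfin : IsOfFinOrder (π hy) := isOfFinOrder_iff_pow_eq_one.2 ⟨6, by norm_num, by
    rw [← map_pow, show hy ^ 6 = 1 from Subtype.ext (by
      show qy ^ 6 = 1
      rw [← map_pow, y6, map_one]), map_one]⟩
  haveI : Finite (Subgroup.zpowers (π hy)) := hyfin.finite_zpowers.to_subtype
  have hb := BoundData.card_closure_le stepQ_valid g3 (map_one π)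
    (fun l => by
      show π (lett3 hx hy ([0, 1, 3, 2].getD l 0)) = (π (lett3 hx hy l))⁻¹
      rw [lett3_inv hgx, map_inv])
    (fun u hu => by
      rw [hg3, ← map_pval]
      refine (QuotientGroup.eq_one_iff _).2 ?_
      rw [hC, Subgroup.mem_subgroupOf, e2]
      rcases (by decide +kernel : ∀ u ∈ stepQ.words, u = cWord ∨ u ∈ stepC.words) u hu with rfl | h
      · exact Subgroup.mem_zpowers qc
      · rw [rel3 u h]; exact one_mem _)
    (Subgroup.zpowers (π hy)) (fun u hu => by
      obtain rfl : u = [2] := (by decide +kernel : ∀ u ∈ stepQ.subs, u = [2]) u hu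
      show 1 * π hy ∈ _
      rw [one_mul]; exact Subgroup.mem_zpowers _) 6
    (by
      rw [Nat.card_zpowers]
      refine orderOf_le_of_pow_eq_one (by norm_num) ?_
      rw [← map_pow, show hy ^ 6 = 1 from Subtype.ext (by
        show qy ^ 6 = 1
        rw [← map_pow, y6, map_one]), map_one])
  have htop : Subgroup.closure (g3 '' {l | l ∈ stepQ.letters}) = ⊤ := by
    rw [eq_top_iff]
    have hh : Subgroup.closure ({hx, hy} : Set hs) = ⊤ := by
      have := Subgroup.closure_closure_coe_preimage (k := ({qx, qy} : Set Q))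
      rw [← this]
      congr 1
      ext a
      simp only [Set.mem_preimage, Set.mem_insert_iff, Set.mem_singleton_iff, Subtype.ext_iff]
      rfl
    intro q _
    obtain ⟨a, rfl⟩ := QuotientGroup.mk'_surjective C q
    have ha : a ∈ Subgroup.closure ({hx, hy} : Set hs) := by rw [hh]; trivial
    have hm := Subgroup.mem_map_of_mem π ha
    rw [MonoidHom.map_closure] at hm
    refine Subgroup.closure_mono ?_ hm
    rintro _ ⟨b, hb, rfl⟩
    rcases hb with rfl | rfl
    · exact ⟨1, (by decide +kernel : 1 ∈ stepQ.letters), rfl⟩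
    · exact ⟨2, (by decide +kernel : 2 ∈ stepQ.letters), rfl⟩
  rw [htop] at hb
  haveI : Finite (hs ⧸ C) := by
    haveI := hb.1
    exact Finite.of_equiv _ Subgroup.topEquiv.toEquiv
  have hq : Nat.card (hs ⧸ C) ≤ 252000 := by
    have := hb.2
    rw [Subgroup.card_top] at this
    exact this.trans (by decide +kernel)
  have hlift : C ≤ (qact.comp hs.subtype).ker := by
    intro a ha
    rw [hC, Subgroup.mem_subgroupOf] at ha
    obtain ⟨k, hk⟩ := Subgroup.mem_zpowers_iff.1 ha
    rw [MonoidHom.mem_ker, MonoidHom.comp_apply, Subgroup.coe_subtype, ← hk, map_zpow, qact_qc, one_zpow]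
  set ψ := QuotientGroup.lift C (qact.comp hs.subtype) hlift with hψ
  have hr : Subgroup.closure ({lperm 1, lperm 3} : Set (Equiv.Perm (Fin 352))) ≤ ψ.range := by
    rw [Subgroup.closure_le]
    rintro _ (rfl | rfl)
    · exact ⟨π hx, (qact_mk x).trans act_x⟩
    · exact ⟨π hy, (qact_mk y).trans act_y⟩
  have hcard : Nat.card (hs ⧸ C) ≤ Nat.card ψ.range :=
    hq.trans (image_ge.trans (Subgroup.card_le_of_le hr))
  have hinj : Function.Injective ψ := by
    have hs' : Function.Surjective ψ.rangeRestrict := MonoidHom.rangeRestrict_surjective ψ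
    have := (Nat.bijective_iff_surjective_and_card _).2
      ⟨hs', le_antisymm hcard (Nat.card_le_card_of_surjective _ hs')⟩
    exact fun a b h => this.1 (Subtype.ext h)
  haveI : Finite C := by
    have : IsOfFinOrder qc := isOfFinOrder_iff_pow_eq_one.2 ⟨3, by norm_num, qc_cube⟩
    haveI := this.finite_zpowers.to_subtype
    exact Finite.of_equiv _ (Subgroup.subgroupOfEquivOfLe
      (by rw [Subgroup.zpowers_le]; exact qc_mem : Subgroup.zpowers qc ≤ hs)).symm.toEquiv
  haveI : Finite hs := Finite.of_equiv _ (Subgroup.groupEquivQuotientProdSubgroup (s := C)).symm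
  refine ⟨inferInstance, ?_, ?_⟩
  · rw [Subgroup.card_eq_card_quotient_mul_card_subgroup C]
    exact Nat.mul_le_mul hq (le_of_eq (Nat.card_congr (Subgroup.subgroupOfEquivOfLe
      (by rw [Subgroup.zpowers_le]; exact qc_mem : Subgroup.zpowers qc ≤ hs)).toEquiv))
  · intro h hh h1
    have : π ⟨h, hh⟩ = 1 := hinj (h1.trans ψ.map_one.symm)
    exact Subgroup.mem_subgroupOf.1 ((QuotientGroup.eq_one_iff (N := C) (⟨h, hh⟩ : hs)).1 this)

theorem hs_top_bound (M : ℕ) (hM : Nat.card hs ≤ M) : Finite Q ∧ Nat.card Q ≤ 352 * M := by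
  haveI := hs_bound.1
  have hzq : qz⁻¹ = qz := by rw [← map_inv, z_inv]
  have hb := BoundData.card_closure_le stepP_valid (lett qx qy qz) rfl (fun l => lett_inv hzq l)
    (fun u hu => by
      have e : lett qx qy qz = fun l => QuotientGroup.mk' cen (lett x y z l) := by
        funext l
        rcases Nat.lt_or_ge l 6 with h | h
        · interval_cases l <;> first | rfl | exact (map_one _).symm | exact (map_inv _ _).symm
        · simp [lett, List.getD_eq_getElem?_getD, h]
      rw [e, ← map_pval, rel hu, map_one])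
    hs (fun u hu => by
      rcases (by decide +kernel : ∀ u ∈ stepP.subs, u = [1] ∨ u = [3]) u hu with rfl | rfl
      · show 1 * qx ∈ _; rw [one_mul]; exact Subgroup.subset_closure (by simp)
      · show 1 * qy ∈ _; rw [one_mul]; exact Subgroup.subset_closure (by simp)) M hM
  have htop : Subgroup.closure (lett qx qy qz '' {l | l ∈ stepP.letters}) = ⊤ := by
    rw [eq_top_iff]
    intro q _
    obtain ⟨a, rfl⟩ := QuotientGroup.mk'_surjective cen q
    have ha : a ∈ Subgroup.closure ({x, y, z} : Set Uni) := by rw [closure_eq_top]; trivial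
    have hm := Subgroup.mem_map_of_mem (QuotientGroup.mk' cen) ha
    rw [MonoidHom.map_closure] at hm
    refine Subgroup.closure_mono ?_ hm
    rintro _ ⟨b, hb, rfl⟩
    rcases hb with rfl | rfl | rfl
    · exact ⟨1, (by decide +kernel : 1 ∈ stepP.letters), rfl⟩
    · exact ⟨3, (by decide +kernel : 3 ∈ stepP.letters), rfl⟩
    · exact ⟨5, (by decide +kernel : 5 ∈ stepP.letters), rfl⟩
  rw [htop] at hb
  refine ⟨?_, ?_⟩
  · haveI := hb.1
    exact Finite.of_equiv _ Subgroup.topEquiv.toEquiv
  · have := hb.2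
    rw [Subgroup.card_top] at this
    exact this

theorem transitive (p : Fin 352) : ∃ g : Q, qact g 0 = p := by
  have hnd := top_ok.1
  have hlen : (topWords.map fun w => run w 0).length = 352 := by rw [List.length_map, top_ok.2]
  let f : Fin 352 → Fin 352 := fun i =>
    pval lperm (topWords.getD i []) 0
  have hf : Function.Injective f := by
    intro i j h
    have h' := congrArg Fin.val h
    simp only [f, pval_apply] at h'
    have hi : (i : ℕ) < topWords.length := by rw [top_ok.2]; exact i.2
    have hj : (j : ℕ) < topWords.length := by rw [top_ok.2]; exact j.2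
    rw [List.getD_eq_getElem _ _ hi, List.getD_eq_getElem _ _ hj] at h'
    have h2 : (topWords.map fun w => run w 0)[(i : ℕ)]'(by rw [hlen]; exact i.2) =
        (topWords.map fun w => run w 0)[(j : ℕ)]'(by rw [hlen]; exact j.2) := by
      simpa using h'
    exact Fin.ext ((List.Nodup.getElem_inj_iff hnd).1 h2)
  obtain ⟨i, hi⟩ := (Finite.injective_iff_surjective.1 hf) p
  refine ⟨QuotientGroup.mk' cen (pval (lett x y z) (topWords.getD i [])), ?_⟩
  rw [qact_mk, map_pval, show (fun l => act (lett x y z l)) = lperm from funext act_lett]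
  exact hi

theorem fixed_hs : ∀ h ∈ hs, qact h 0 = 0 := by
  intro h hh
  induction hh using Subgroup.closure_induction with
  | mem a ha =>
    rcases ha with rfl | rfl
    · rw [qact_mk, act_x]
      exact Fin.ext ((by decide +kernel : step 1 0 = 0))
    · rw [qact_mk, act_y]
      exact Fin.ext ((by decide +kernel : step 3 0 = 0))
  | one => rw [map_one]; rfl
  | mul a b _ _ ha hb => rw [map_mul, Equiv.Perm.mul_apply, hb, ha]
  | inv a _ ha => rw [map_inv, Equiv.Perm.inv_eq_iff_eq]; exact ha.symm

theorem ker_le_hs {g : Q} (hg : qact g = 1) : g ∈ hs := by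
  obtain ⟨hfin, hle⟩ := hs_top_bound (Nat.card hs) le_rfl
  haveI := hfin
  letI : MulAction Q (Fin 352) := MulAction.compHom _ qact
  have hsurj : Function.Surjective fun q : Q => q • (0 : Fin 352) := transitive
  have horb : MulAction.orbit Q (0 : Fin 352) = Set.univ := Set.eq_univ_of_forall fun p => hsurj p
  have e := Nat.card_congr (MulAction.orbitProdStabilizerEquivGroup Q (0 : Fin 352))
  rw [Nat.card_prod, horb, Nat.card_coe_set_eq, Set.ncard_univ, Nat.card_fin] at e
  have hsub : hs ≤ MulAction.stabilizer Q (0 : Fin 352) := fun h hh => fixed_hs h hh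
  have heq : hs = MulAction.stabilizer Q (0 : Fin 352) :=
    Subgroup.eq_of_le_of_card_ge hsub (by omega)
  rw [heq]
  show qact g 0 = 0
  rw [hg]; rfl

theorem qc_eq_one : qc = 1 := by
  have hker : ∀ g : Q, g * qc * g⁻¹ ∈ Subgroup.zpowers qc := by
    intro g
    have h1 : qact (g * qc * g⁻¹) = 1 := by rw [map_mul, map_mul, qact_qc, map_inv]; simp
    exact hs_bound.2.2 _ (ker_le_hs h1) h1
  have hzz : qz * qz = 1 := by
    have h : qz⁻¹ = qz := by rw [← map_inv, z_inv]
    nth_rewrite 1 [← h]; exact inv_mul_cancel _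
  refine eq_one_of_signs (x := qx) (z := qz) (w := qy * qy * qy * qx * qy * qx * qy) hzz qc_cube qc_x
    (hker qz) (hker _) ?_
  have h := rel (show [1, 3, 1, 3, 1, 3, 3, 3, 5, 4, 4, 4, 2, 4, 2, 4, 1, 3, 1, 3, 1, 3, 3, 3, 5, 4, 4, 4, 2, 4, 2, 4,
    1, 3, 1, 3, 1, 3, 3, 3, 5, 4, 4, 4, 2, 4, 2, 4, 5] ∈ stepP.words by decide +kernel)
  have h2 := congrArg (QuotientGroup.mk' cen) h
  rw [map_one] at h2
  rw [← h2]
  simp [pval, lett, pow_succ, map_mul, map_inv, mul_inv_rev, mul_assoc]

theorem card_hs : Nat.card hs ≤ 252000 := by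
  have h := hs_bound.2.1
  rw [qc_eq_one, Subgroup.zpowers_one_eq_bot, Subgroup.card_bot, mul_one] at h
  exact h

/-- The order of the quotient. -/
theorem card_Q : Finite Q ∧ Nat.card Q ≤ 88704000 := by
  obtain ⟨hfin, hle⟩ := hs_top_bound 252000 card_hs
  exact ⟨hfin, hle⟩

/-- The quotient acts faithfully on the 352 points. -/
theorem qact_injective : Function.Injective qact := by
  rw [injective_iff_map_eq_one]
  intro g hg
  have h := hs_bound.2.2 g (ker_le_hs hg) hg
  rwa [qc_eq_one, Subgroup.zpowers_one_eq_bot, Subgroup.mem_bot] at h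

/-- The order of the universal group. -/
theorem card_uni : Finite Uni ∧ Nat.card Uni ≤ 177408000 := by
  haveI := card_Q.1
  have hcen : IsOfFinOrder (x * x) := isOfFinOrder_iff_pow_eq_one.2
    ⟨2, by norm_num, by rw [← x4]; simp [pow_succ, mul_assoc]⟩
  haveI := hcen.finite_zpowers.to_subtype
  refine ⟨Finite.of_equiv _ (Subgroup.groupEquivQuotientProdSubgroup (s := cen)).symm, ?_⟩
  rw [Subgroup.card_eq_card_quotient_mul_card_subgroup cen]
  exact (Nat.mul_le_mul card_Q.2 cen_card).trans (by norm_num)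

end Uni

/-- **The bound**: three elements that satisfy the first ten Harada-Norton relators generate a group of order at
most `2 * 352 * 252000`. -/
theorem card_le {G : Type*} [Group G] (x y z : G) (h : ∀ u ∈ stepP.words, pval (lett x y z) u = 1) :
    Finite (Subgroup.closure ({x, y, z} : Set G)) ∧
      Nat.card (Subgroup.closure ({x, y, z} : Set G)) ≤ 177408000 := by
  have hlift : ∀ r ∈ {r | ∃ u ∈ stepP.words,
      r = pval (lett (FreeGroup.of (0 : Fin 3)) (FreeGroup.of 1) (FreeGroup.of 2)) u},
      FreeGroup.lift ![x, y, z] r = 1 := by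
    rintro r ⟨u, hu, rfl⟩
    rw [map_pval]
    have e : (fun l => FreeGroup.lift ![x, y, z]
        (lett (FreeGroup.of (0 : Fin 3)) (FreeGroup.of 1) (FreeGroup.of 2) l)) = lett x y z := by
      funext l
      rcases Nat.lt_or_ge l 6 with h | h
      · interval_cases l <;> simp [lett]
      · simp [lett, List.getD_eq_getElem?_getD, h]
    rw [e]
    exact h u hu
  let f : Uni →* G := PresentedGroup.toGroup hlift
  have hr : f.range = Subgroup.closure ({x, y, z} : Set G) := by
    rw [MonoidHom.range_eq_map, ← Uni.closure_eq_top, MonoidHom.map_closure]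
    simp [f, Uni.x, Uni.y, Uni.z, Set.image_insert_eq]
  rw [← hr]
  haveI := Uni.card_uni.1
  refine ⟨Finite.of_surjective f.rangeRestrict f.rangeRestrict_surjective, ?_⟩
  exact (Nat.card_le_card_of_surjective f.rangeRestrict f.rangeRestrict_surjective).trans Uni.card_uni.2

end Cfsg.Agent.HNBound
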