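import Cfsg.Agent.HNBound.StepP
import Cfsg.Agent.HNBound.Orbits

/-! The action on 352 points, and a lower bound for the order of the image of two of the generators. -/

set_option autoImplicit false
set_option maxRecDepth 100000

namespace Cfsg.Agent.HNBound

open Cfsg.Agent.CosetCert Cfsg.Agent.CosetEnum

/-- Table entry. -/
noncomputable def step (l i : ℕ) : ℕ :=
  cond (Nat.beq l 0) i (cond (Nat.blt l 6) ((stepP.tabs.getD l (PTree.leaf 0)).get 32 i) i)

/-- Inverse letter, the identity off the table. -/
def pinv (l : ℕ) : ℕ := stepP.invl.getD l 0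

theorem step_ok : ∀ l < 6, ∀ i < 352,
    (Nat.blt (step l i) 352 && Nat.beq (step (pinv l) (step l i)) i) = true := by
  decide +kernel

theorem pinv_pinv : ∀ l < 6, pinv (pinv l) = l ∧ pinv l < 6 := by decide +kernel

theorem step_out {l : ℕ} (h : 6 ≤ l) (i : ℕ) : step l i = i := by
  have h1 : Nat.beq l 0 = false := by
    cases hb : Nat.beq l 0
    · rfl
    · exact absurd (Nat.eq_of_beq_eq_true hb) (by omega)
  have h2 : Nat.blt l 6 = false := by
    cases hb : Nat.blt l 6
    · rfl
    · exact absurd (Nat.le_of_ble_eq_true hb) (by omega)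
  simp [step, h1, h2]

theorem step_lt (l : ℕ) (i : Fin 352) : step l i < 352 := by
  by_cases h : l < 6
  · have := step_ok l h i i.2
    rw [Bool.and_eq_true] at this
    exact Nat.le_of_ble_eq_true this.1
  · rw [step_out (not_lt.1 h)]; exact i.2

theorem step_pinv (l : ℕ) (i : Fin 352) : step (pinv l) (step l i) = i := by
  by_cases h : l < 6
  · have := step_ok l h i i.2
    rw [Bool.and_eq_true] at this
    exact Nat.eq_of_beq_eq_true this.2
  · have e : pinv l = 0 := List.getD_eq_default _ _ (by simpa [stepP] using not_lt.1 h)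
    rw [e, step_out (not_lt.1 h)]; rfl

/-- A letter as a permutation. -/
noncomputable def lperm (l : ℕ) : Equiv.Perm (Fin 352) where
  toFun i := ⟨step l i, step_lt l i⟩
  invFun i := ⟨step (pinv l) i, step_lt (pinv l) i⟩
  left_inv i := Fin.ext (step_pinv l i)
  right_inv i := by
    apply Fin.ext
    by_cases h : l < 6
    · have := step_pinv (pinv l) i
      rw [(pinv_pinv l h).1] at this
      exact this
    · have e : pinv l = 0 := List.getD_eq_default _ _ (by simpa [stepP] using not_lt.1 h)
      show step l (step (pinv l) i) = i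
      rw [e, step_out (not_lt.1 h)]; rfl

theorem lperm_zero : lperm 0 = 1 := by
  ext i; rfl

theorem lperm_inv (l : ℕ) : lperm (pinv l) = (lperm l)⁻¹ := by
  rw [eq_inv_iff_mul_eq_one]
  ext i
  by_cases h : l < 6
  · have := step_pinv (pinv l) i
    rw [(pinv_pinv l h).1] at this
    have h2 := step_pinv l i
    exact h2
  · exact step_pinv l i

/-- Follow a path word. -/
noncomputable def run (w : List ℕ) (i : ℕ) : ℕ := w.foldl (fun p l => step l p) i

theorem pval_apply (w : List ℕ) (i : Fin 352) : ((pval lperm w) i : ℕ) = run w i := by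
  induction w generalizing i with
  | nil => rfl
  | cons l ls ih =>
    show ((pval lperm ls) (lperm l i) : ℕ) = run ls (step l i)
    exact ih _

theorem pval_eq_one {w : List ℕ} (h : ∀ i < 352, run w i = i) : pval lperm w = 1 := by
  ext i
  rw [pval_apply, h i i.2]
  rfl

theorem relators_ok : ∀ u ∈ stepP.words, ∀ i < 352, run u i = i := by
  decide +kernel

/-- Letters of the two-generator group among the five. -/
def emb3 (l : ℕ) : ℕ := [0, 1, 3, 4].getD l 0

theorem c_ok : ∀ i < 352, run (cWord.map emb3) i = i := by decide +kernel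

theorem sq_ok : ∀ i < 352, run [1, 1] i = i := by decide +kernel

/-- Order of `y` on the points: no smaller power is the identity. -/
theorem y_ok : ∀ k < 6, k = 0 ∨ ∃ i < 352, run (List.replicate k 3) i ≠ i := by
  decide +kernel

/-- Values of a list of index words. -/
noncomputable def permsOf (A : List (Equiv.Perm (Fin 352))) (L : List (List ℕ)) : List (Equiv.Perm (Fin 352)) :=
  L.map (pval fun j => A.getD j 1)

/-- Level 0. -/
noncomputable def A0 : List (Equiv.Perm (Fin 352)) := [lperm 1, lperm 3, lperm 4]
/-- Level 1. -/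
noncomputable def A1 : List (Equiv.Perm (Fin 352)) := permsOf A0 gens1
/-- Level 2. -/
noncomputable def A2 : List (Equiv.Perm (Fin 352)) := permsOf A1 gens2

/-- Flattened words of level 0. -/
def F0 : List (List ℕ) := gens0
/-- Flattened words of level 1. -/
def F1 : List (List ℕ) := gens1.map fun w => w.flatMap fun j => F0.getD j []
/-- Flattened words of level 2. -/
def F2 : List (List ℕ) := gens2.map fun w => w.flatMap fun j => F1.getD j []

theorem pval_flat (F : List (List ℕ)) (w : List ℕ) :
    pval lperm (w.flatMap fun j => F.getD j []) = pval (fun j => (F.map (pval lperm)).getD j 1) w := by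
  induction w with
  | nil => rfl
  | cons l ls ih =>
    rw [List.flatMap_cons, pval_append, ih]
    show _ * _ = pval _ ls * (F.map (pval lperm)).getD l 1
    congr 1
    rw [List.getD_eq_getElem?_getD, List.getD_eq_getElem?_getD, List.getElem?_map]
    cases F[l]? <;> rfl

theorem A0_eq : A0 = F0.map (pval lperm) := by
  simp [A0, F0, gens0, pval]

theorem A1_eq : A1 = F1.map (pval lperm) := by
  rw [A1, permsOf, F1, List.map_map, A0_eq]
  exact List.map_congr_left fun w _ => (pval_flat F0 w).symm

theorem A2_eq : A2 = F2.map (pval lperm) := by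
  rw [A2, permsOf, F2, List.map_map, A1_eq]
  exact List.map_congr_left fun w _ => (pval_flat F1 w).symm

theorem pval_getD_mem (A : List (Equiv.Perm (Fin 352))) (w : List ℕ) :
    pval (fun j => A.getD j 1) w ∈ Subgroup.closure {g | g ∈ A} := by
  induction w with
  | nil => exact one_mem _
  | cons l ls ih =>
    refine mul_mem ih ?_
    show A.getD l 1 ∈ _
    rcases lt_or_ge l A.length with h | h
    · rw [List.getD_eq_getElem _ _ h]
      exact Subgroup.subset_closure (List.getElem_mem h)
    · rw [List.getD_eq_default _ _ h]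
      exact one_mem _

theorem closure_permsOf_le (A : List (Equiv.Perm (Fin 352))) (L : List (List ℕ)) :
    Subgroup.closure {g | g ∈ permsOf A L} ≤ Subgroup.closure {g | g ∈ A} := by
  rw [Subgroup.closure_le]
  rintro _ hg
  obtain ⟨w, _, rfl⟩ := List.mem_map.1 hg
  exact pval_getD_mem A w

/-- One step of the chain: many images of a point times a subgroup of its stabiliser. -/
theorem card_step {α : Type*} (A B : Subgroup (Equiv.Perm α)) [Finite A] (a : α) (hBA : B ≤ A)
    (hB : ∀ g ∈ B, g a = a) (L : List α) (hL : L.Nodup) (hmem : ∀ p ∈ L, ∃ g ∈ A, g a = p) :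
    L.length * Nat.card B ≤ Nat.card A := by
  classical
  have hf : ∀ i : Fin L.length, ∃ g ∈ A, g a = L.get i := fun i => hmem _ (List.get_mem L i)
  choose f hfA hfa using hf
  let m : Fin L.length × B → A := fun p => ⟨f p.1 * p.2.1, mul_mem (hfA _) (hBA p.2.2)⟩
  have hm : Function.Injective m := by
    rintro ⟨i, b⟩ ⟨j, b'⟩ h
    have h1 : f i * b.1 = f j * b'.1 := congrArg Subtype.val h
    have hij : L.get i = L.get j := by
      have h2 := congrArg (fun g : Equiv.Perm α => g a) h1
      simp only [Equiv.Perm.mul_apply, hB _ b.2, hB _ b'.2, hfa] at h2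
      exact h2
    obtain rfl := List.nodup_iff_injective_get.1 hL hij
    simp only [mul_right_inj] at h1
    exact Prod.ext rfl (Subtype.ext h1)
  have h3 := Nat.card_le_card_of_injective m hm
  rwa [Nat.card_prod, Nat.card_fin] at h3

theorem fixes (F : List (List ℕ)) (a : Fin 352) (h : ∀ w ∈ F, run w a = a) :
    ∀ g ∈ Subgroup.closure {g | g ∈ F.map (pval lperm)}, g a = a := by
  intro g hg
  induction hg using Subgroup.closure_induction with
  | mem x hx =>
    obtain ⟨w, hw, rfl⟩ := List.mem_map.1 hx
    exact Fin.ext (by rw [pval_apply, h w hw])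
  | one => rfl
  | mul x y _ _ hx hy => rw [Equiv.Perm.mul_apply, hy, hx]
  | inv x _ hx => rw [Equiv.Perm.inv_eq_iff_eq]; exact hx.symm

/-- Images of a point under index words. -/
noncomputable def images (F : List (List ℕ)) (a : ℕ) (O : List (List ℕ)) : List ℕ :=
  O.map fun w => run (w.flatMap fun j => F.getD j []) a

theorem orbit_le (A : List (Equiv.Perm (Fin 352))) (F : List (List ℕ)) (hA : A = F.map (pval lperm))
    (a : Fin 352) (O : List (List ℕ)) (hO : (images F a O).Nodup)
    (B : Subgroup (Equiv.Perm (Fin 352))) (hBA : B ≤ Subgroup.closure {g | g ∈ A})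
    (hB : ∀ g ∈ B, g a = a) :
    O.length * Nat.card B ≤ Nat.card (Subgroup.closure {g | g ∈ A}) := by
  have h := card_step (Subgroup.closure {g | g ∈ A}) B a hBA hB
    (O.map fun w => pval (fun j => A.getD j 1) w a) ?_ ?_
  · rwa [List.length_map] at h
  · refine List.Nodup.of_map (fun i : Fin 352 => (i : ℕ)) ?_
    rw [List.map_map]
    convert hO using 1
    refine List.map_congr_left fun w _ => ?_
    simp only [Function.comp, hA, ← pval_flat, pval_apply]
  · intro p hp
    obtain ⟨w, _, rfl⟩ := List.mem_map.1 hp
    exact ⟨_, pval_getD_mem A w, rfl⟩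

theorem orbit0_ok : (images F0 base0 orbit0).Nodup ∧ orbit0.length = 175 ∧ (∀ w ∈ F1, run w base0 = base0) := by
  decide +kernel

theorem orbit1_ok : (images F1 base1 orbit1).Nodup ∧ orbit1.length = 90 ∧ (∀ w ∈ F2, run w base1 = base1) := by
  decide +kernel

theorem orbit2_ok : (images F2 base2 orbit2).Nodup ∧ orbit2.length = 16 := by
  decide +kernel

/-- The first and third letters generate at least 252000 permutations. -/
theorem image_ge : 252000 ≤ Nat.card (Subgroup.closure ({lperm 1, lperm 3} : Set (Equiv.Perm (Fin 352)))) := by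
  have e : Subgroup.closure {g | g ∈ A0} ≤ Subgroup.closure ({lperm 1, lperm 3} : Set (Equiv.Perm (Fin 352))) := by
    rw [Subgroup.closure_le]
    intro g hg
    simp only [A0, List.mem_cons, List.not_mem_nil, or_false, Set.mem_setOf_eq] at hg
    rcases hg with rfl | rfl | rfl
    · exact Subgroup.subset_closure (by simp)
    · exact Subgroup.subset_closure (by simp)
    · have : lperm 4 = (lperm 3)⁻¹ := lperm_inv 3
      rw [this]
      exact inv_mem (Subgroup.subset_closure (by simp))
  have h2 := orbit_le A2 F2 A2_eq (⟨base2, by decide⟩ : Fin 352) orbit2 orbit2_ok.1 ⊥ bot_le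
    (fun g hg => by rw [Subgroup.mem_bot.1 hg]; rfl)
  have h1 := orbit_le A1 F1 A1_eq (⟨base1, by decide⟩ : Fin 352) orbit1 orbit1_ok.1
    (Subgroup.closure {g | g ∈ A2}) (closure_permsOf_le A1 gens2)
    (by rw [A2_eq]; exact fixes F2 _ orbit1_ok.2.2)
  have h0 := orbit_le A0 F0 A0_eq (⟨base0, by decide⟩ : Fin 352) orbit0 orbit0_ok.1
    (Subgroup.closure {g | g ∈ A1}) (closure_permsOf_le A0 gens1)
    (by rw [A1_eq]; exact fixes F1 _ orbit0_ok.2.2)
  rw [Subgroup.card_bot, orbit2_ok.2] at h2
  rw [orbit1_ok.2.1] at h1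
  rw [orbit0_ok.2.1] at h0
  have := Subgroup.card_le_of_le e
  omega

theorem top_ok : (topWords.map fun w => run w 0).Nodup ∧ topWords.length = 352 := by
  decide +kernel

end Cfsg.Agent.HNBound
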