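import Cfsg.Agent.HNBound.StepP

/-! Machine-generated checks. -/

set_option maxRecDepth 100000
set_option Elab.async false

namespace Cfsg.Agent.HNBound

open Cfsg.Agent.CosetCert Cfsg.Agent.CosetEnum

theorem stepP_fb80 : allB (fun k => Nat.ble stepP.nf k || stepP.cert.factOK k) 11 163840 = true := by
  decide +kernel

theorem stepP_fb81 : allB (fun k => Nat.ble stepP.nf k || stepP.cert.factOK k) 11 165888 = true := by
  decide +kernel

theorem stepP_fb82 : allB (fun k => Nat.ble stepP.nf k || stepP.cert.factOK k) 11 167936 = true := by
  decide +kernel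

theorem stepP_fb83 : allB (fun k => Nat.ble stepP.nf k || stepP.cert.factOK k) 11 169984 = true := by
  decide +kernel

theorem stepP_fb84 : allB (fun k => Nat.ble stepP.nf k || stepP.cert.factOK k) 11 172032 = true := by
  decide +kernel

theorem stepP_fb85 : allB (fun k => Nat.ble stepP.nf k || stepP.cert.factOK k) 11 174080 = true := by
  decide +kernel

theorem stepP_fb86 : allB (fun k => Nat.ble stepP.nf k || stepP.cert.factOK k) 11 176128 = true := by
  decide +kernel

theorem stepP_fb87 : allB (fun k => Nat.ble stepP.nf k || stepP.cert.factOK k) 11 178176 = true := by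
  decide +kernel

end Cfsg.Agent.HNBound
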