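import Cfsg.Agent.HNBound.StepP

/-! Machine-generated checks. -/

set_option maxRecDepth 100000
set_option Elab.async false

namespace Cfsg.Agent.HNBound

open Cfsg.Agent.CosetCert Cfsg.Agent.CosetEnum

theorem stepP_fb32 : allB (fun k => Nat.ble stepP.nf k || stepP.cert.factOK k) 11 65536 = true := by
  decide +kernel

theorem stepP_fb33 : allB (fun k => Nat.ble stepP.nf k || stepP.cert.factOK k) 11 67584 = true := by
  decide +kernel

theorem stepP_fb34 : allB (fun k => Nat.ble stepP.nf k || stepP.cert.factOK k) 11 69632 = true := by
  decide +kernel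

theorem stepP_fb35 : allB (fun k => Nat.ble stepP.nf k || stepP.cert.factOK k) 11 71680 = true := by
  decide +kernel

theorem stepP_fb36 : allB (fun k => Nat.ble stepP.nf k || stepP.cert.factOK k) 11 73728 = true := by
  decide +kernel

theorem stepP_fb37 : allB (fun k => Nat.ble stepP.nf k || stepP.cert.factOK k) 11 75776 = true := by
  decide +kernel

theorem stepP_fb38 : allB (fun k => Nat.ble stepP.nf k || stepP.cert.factOK k) 11 77824 = true := by
  decide +kernel

theorem stepP_fb39 : allB (fun k => Nat.ble stepP.nf k || stepP.cert.factOK k) 11 79872 = true := by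
  decide +kernel

end Cfsg.Agent.HNBound
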