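import Cfsg.Agent.HNBound.StepP

/-! Machine-generated checks. -/

set_option maxRecDepth 100000
set_option Elab.async false

namespace Cfsg.Agent.HNBound

open Cfsg.Agent.CosetCert Cfsg.Agent.CosetEnum

theorem stepP_fb48 : allB (fun k => Nat.ble stepP.nf k || stepP.cert.factOK k) 11 98304 = true := by
  decide +kernel

theorem stepP_fb49 : allB (fun k => Nat.ble stepP.nf k || stepP.cert.factOK k) 11 100352 = true := by
  decide +kernel

theorem stepP_fb50 : allB (fun k => Nat.ble stepP.nf k || stepP.cert.factOK k) 11 102400 = true := by
  decide +kernel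

theorem stepP_fb51 : allB (fun k => Nat.ble stepP.nf k || stepP.cert.factOK k) 11 104448 = true := by
  decide +kernel

theorem stepP_fb52 : allB (fun k => Nat.ble stepP.nf k || stepP.cert.factOK k) 11 106496 = true := by
  decide +kernel

theorem stepP_fb53 : allB (fun k => Nat.ble stepP.nf k || stepP.cert.factOK k) 11 108544 = true := by
  decide +kernel

theorem stepP_fb54 : allB (fun k => Nat.ble stepP.nf k || stepP.cert.factOK k) 11 110592 = true := by
  decide +kernel

theorem stepP_fb55 : allB (fun k => Nat.ble stepP.nf k || stepP.cert.factOK k) 11 112640 = true := by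
  decide +kernel

end Cfsg.Agent.HNBound
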