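import Cfsg.Agent.HNBound.StepP

/-! Machine-generated checks. -/

set_option maxRecDepth 100000
set_option Elab.async false

namespace Cfsg.Agent.HNBound

open Cfsg.Agent.CosetCert Cfsg.Agent.CosetEnum

theorem stepP_fb56 : allB (fun k => Nat.ble stepP.nf k || stepP.cert.factOK k) 11 114688 = true := by
  decide +kernel

theorem stepP_fb57 : allB (fun k => Nat.ble stepP.nf k || stepP.cert.factOK k) 11 116736 = true := by
  decide +kernel

theorem stepP_fb58 : allB (fun k => Nat.ble stepP.nf k || stepP.cert.factOK k) 11 118784 = true := by
  decide +kernel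

theorem stepP_fb59 : allB (fun k => Nat.ble stepP.nf k || stepP.cert.factOK k) 11 120832 = true := by
  decide +kernel

theorem stepP_fb60 : allB (fun k => Nat.ble stepP.nf k || stepP.cert.factOK k) 11 122880 = true := by
  decide +kernel

theorem stepP_fb61 : allB (fun k => Nat.ble stepP.nf k || stepP.cert.factOK k) 11 124928 = true := by
  decide +kernel

theorem stepP_fb62 : allB (fun k => Nat.ble stepP.nf k || stepP.cert.factOK k) 11 126976 = true := by
  decide +kernel

theorem stepP_fb63 : allB (fun k => Nat.ble stepP.nf k || stepP.cert.factOK k) 11 129024 = true := by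
  decide +kernel

end Cfsg.Agent.HNBound
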