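import Cfsg.Agent.HNBound.StepP

/-! Machine-generated checks. -/

set_option maxRecDepth 100000
set_option Elab.async false

namespace Cfsg.Agent.HNBound

open Cfsg.Agent.CosetCert Cfsg.Agent.CosetEnum

theorem stepP_fb64 : allB (fun k => Nat.ble stepP.nf k || stepP.cert.factOK k) 11 131072 = true := by
  decide +kernel

theorem stepP_fb65 : allB (fun k => Nat.ble stepP.nf k || stepP.cert.factOK k) 11 133120 = true := by
  decide +kernel

theorem stepP_fb66 : allB (fun k => Nat.ble stepP.nf k || stepP.cert.factOK k) 11 135168 = true := by
  decide +kernel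

theorem stepP_fb67 : allB (fun k => Nat.ble stepP.nf k || stepP.cert.factOK k) 11 137216 = true := by
  decide +kernel

theorem stepP_fb68 : allB (fun k => Nat.ble stepP.nf k || stepP.cert.factOK k) 11 139264 = true := by
  decide +kernel

theorem stepP_fb69 : allB (fun k => Nat.ble stepP.nf k || stepP.cert.factOK k) 11 141312 = true := by
  decide +kernel

theorem stepP_fb70 : allB (fun k => Nat.ble stepP.nf k || stepP.cert.factOK k) 11 143360 = true := by
  decide +kernel

theorem stepP_fb71 : allB (fun k => Nat.ble stepP.nf k || stepP.cert.factOK k) 11 145408 = true := by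
  decide +kernel

end Cfsg.Agent.HNBound
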