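import Cfsg.Agent.HNBound.StepP

/-! Machine-generated checks. -/

set_option maxRecDepth 100000
set_option Elab.async false

namespace Cfsg.Agent.HNBound

open Cfsg.Agent.CosetCert Cfsg.Agent.CosetEnum

theorem stepP_fb72 : allB (fun k => Nat.ble stepP.nf k || stepP.cert.factOK k) 11 147456 = true := by
  decide +kernel

theorem stepP_fb73 : allB (fun k => Nat.ble stepP.nf k || stepP.cert.factOK k) 11 149504 = true := by
  decide +kernel

theorem stepP_fb74 : allB (fun k => Nat.ble stepP.nf k || stepP.cert.factOK k) 11 151552 = true := by
  decide +kernel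

theorem stepP_fb75 : allB (fun k => Nat.ble stepP.nf k || stepP.cert.factOK k) 11 153600 = true := by
  decide +kernel

theorem stepP_fb76 : allB (fun k => Nat.ble stepP.nf k || stepP.cert.factOK k) 11 155648 = true := by
  decide +kernel

theorem stepP_fb77 : allB (fun k => Nat.ble stepP.nf k || stepP.cert.factOK k) 11 157696 = true := by
  decide +kernel

theorem stepP_fb78 : allB (fun k => Nat.ble stepP.nf k || stepP.cert.factOK k) 11 159744 = true := by
  decide +kernel

theorem stepP_fb79 : allB (fun k => Nat.ble stepP.nf k || stepP.cert.factOK k) 11 161792 = true := by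
  decide +kernel

end Cfsg.Agent.HNBound
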