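import Cfsg.Agent.HNBound.StepQ

/-! Machine-generated checks. -/

set_option maxRecDepth 100000
set_option Elab.async false

namespace Cfsg.Agent.HNBound

open Cfsg.Agent.CosetCert Cfsg.Agent.CosetEnum

theorem stepQ_fb0 : allB (fun k => Nat.ble stepQ.nf k || stepQ.cert.factOK k) 11 0 = true := by
  decide +kernel

theorem stepQ_fb1 : allB (fun k => Nat.ble stepQ.nf k || stepQ.cert.factOK k) 11 2048 = true := by
  decide +kernel

theorem stepQ_fb2 : allB (fun k => Nat.ble stepQ.nf k || stepQ.cert.factOK k) 11 4096 = true := by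
  decide +kernel

theorem stepQ_fb3 : allB (fun k => Nat.ble stepQ.nf k || stepQ.cert.factOK k) 11 6144 = true := by
  decide +kernel

theorem stepQ_fb4 : allB (fun k => Nat.ble stepQ.nf k || stepQ.cert.factOK k) 11 8192 = true := by
  decide +kernel

theorem stepQ_fb5 : allB (fun k => Nat.ble stepQ.nf k || stepQ.cert.factOK k) 11 10240 = true := by
  decide +kernel

theorem stepQ_fb6 : allB (fun k => Nat.ble stepQ.nf k || stepQ.cert.factOK k) 11 12288 = true := by
  decide +kernel

theorem stepQ_fb7 : allB (fun k => Nat.ble stepQ.nf k || stepQ.cert.factOK k) 11 14336 = true := by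
  decide +kernel

end Cfsg.Agent.HNBound
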