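import Cfsg.Agent.HNBound.StepQ

/-! Machine-generated checks. -/

set_option maxRecDepth 100000
set_option Elab.async false

namespace Cfsg.Agent.HNBound

open Cfsg.Agent.CosetCert Cfsg.Agent.CosetEnum

theorem stepQ_fb8 : allB (fun k => Nat.ble stepQ.nf k || stepQ.cert.factOK k) 11 16384 = true := by
  decide +kernel

theorem stepQ_fb9 : allB (fun k => Nat.ble stepQ.nf k || stepQ.cert.factOK k) 11 18432 = true := by
  decide +kernel

theorem stepQ_fb10 : allB (fun k => Nat.ble stepQ.nf k || stepQ.cert.factOK k) 11 20480 = true := by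
  decide +kernel

theorem stepQ_fb11 : allB (fun k => Nat.ble stepQ.nf k || stepQ.cert.factOK k) 11 22528 = true := by
  decide +kernel

theorem stepQ_fb12 : allB (fun k => Nat.ble stepQ.nf k || stepQ.cert.factOK k) 11 24576 = true := by
  decide +kernel

theorem stepQ_fb13 : allB (fun k => Nat.ble stepQ.nf k || stepQ.cert.factOK k) 11 26624 = true := by
  decide +kernel

theorem stepQ_fb14 : allB (fun k => Nat.ble stepQ.nf k || stepQ.cert.factOK k) 11 28672 = true := by
  decide +kernel

theorem stepQ_fb15 : allB (fun k => Nat.ble stepQ.nf k || stepQ.cert.factOK k) 11 30720 = true := by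
  decide +kernel

end Cfsg.Agent.HNBound
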