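import Cfsg.Agent.HNBound.StepQ

/-! Machine-generated checks. -/

set_option maxRecDepth 100000
set_option Elab.async false

namespace Cfsg.Agent.HNBound

open Cfsg.Agent.CosetCert Cfsg.Agent.CosetEnum

theorem stepQ_fb24 : allB (fun k => Nat.ble stepQ.nf k || stepQ.cert.factOK k) 11 49152 = true := by
  decide +kernel

theorem stepQ_fb25 : allB (fun k => Nat.ble stepQ.nf k || stepQ.cert.factOK k) 11 51200 = true := by
  decide +kernel

theorem stepQ_fb26 : allB (fun k => Nat.ble stepQ.nf k || stepQ.cert.factOK k) 11 53248 = true := by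
  decide +kernel

theorem stepQ_fb27 : allB (fun k => Nat.ble stepQ.nf k || stepQ.cert.factOK k) 11 55296 = true := by
  decide +kernel

theorem stepQ_fb28 : allB (fun k => Nat.ble stepQ.nf k || stepQ.cert.factOK k) 11 57344 = true := by
  decide +kernel

theorem stepQ_fb29 : allB (fun k => Nat.ble stepQ.nf k || stepQ.cert.factOK k) 11 59392 = true := by
  decide +kernel

theorem stepQ_fb30 : allB (fun k => Nat.ble stepQ.nf k || stepQ.cert.factOK k) 11 61440 = true := by
  decide +kernel

end Cfsg.Agent.HNBound
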